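import Mathlib.GroupTheory.QuotientGroup.Basic
import Mathlib.GroupTheory.GroupAction.Defs
import Mathlib.GroupTheory.PGroup
import Mathlib.LinearAlgebra.Matrix.Trace
import Mathlib.Analysis.Complex.Basic
import Mathlib.Algebra.Group.Subgroup.Pointwise

/-!
Central products of groups of order eight, abstractly: a group `E` with centre `{1, z}` whose
squares are central.
-/

namespace CfsgLib.ExtraSplit59

open scoped commutatorElement

universe u

/-- `E` has centre `{1, z}` of order two and central squares. -/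
structure Ex (E : Type u) [Group E] (z : E) : Prop where
  ne : z ≠ 1
  sq_z : z * z = 1
  mem_center : ∀ x : E, x ∈ Subgroup.center E ↔ x = 1 ∨ x = z
  sq_mem : ∀ x : E, x * x ∈ Subgroup.center E

variable {E : Type u} [Group E] {z : E}

namespace Ex

variable (h : Ex E z)
include h

theorem z_mem : z ∈ Subgroup.center E := (h.mem_center z).2 (Or.inr rfl)

theorem z_comm (x : E) : z * x = x * z := (Subgroup.mem_center_iff.1 h.z_mem x).symm

theorem z_inv : z⁻¹ = z := inv_eq_of_mul_eq_one_left h.sq_z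

theorem quot_sq (u : E ⧸ Subgroup.center E) : u * u = 1 := by
  induction u using QuotientGroup.induction_on with
  | H x =>
    rw [← QuotientGroup.mk_mul, QuotientGroup.eq_one_iff]
    exact h.sq_mem x

theorem quot_inv (u : E ⧸ Subgroup.center E) : u⁻¹ = u :=
  inv_eq_of_mul_eq_one_left (h.quot_sq u)

theorem quot_comm (u v : E ⧸ Subgroup.center E) : u * v = v * u := by
  have e := h.quot_inv (u * v)
  rw [mul_inv_rev, h.quot_inv, h.quot_inv] at e
  exact e.symm

theorem comm_mem (x y : E) : ⁅x, y⁆ ∈ Subgroup.center E := by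
  rw [← QuotientGroup.eq_one_iff, commutatorElement_def, QuotientGroup.mk_mul,
    QuotientGroup.mk_mul, QuotientGroup.mk_mul, QuotientGroup.mk_inv, QuotientGroup.mk_inv,
    h.quot_comm (x : E ⧸ Subgroup.center E) y]
  simp

theorem normal_of_center_le (B : Subgroup E) (hB : Subgroup.center E ≤ B) : B.Normal := by
  refine ⟨fun b hb g => ?_⟩
  have e : g * b * g⁻¹ = ⁅g, b⁆ * b := by simp [commutatorElement_def]
  rw [e]
  exact B.mul_mem (hB (h.comm_mem g b)) hb

/-- An element not in the centre is conjugate to its product with `z`. -/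
theorem exists_conj {x : E} (hx : x ∉ Subgroup.center E) : ∃ g : E, g * x * g⁻¹ = z * x := by
  rw [Subgroup.mem_center_iff, not_forall] at hx
  obtain ⟨g, hg⟩ := hx
  refine ⟨g, ?_⟩
  rcases (h.mem_center ⁅g, x⁆).1 (h.comm_mem g x) with h1 | h1
  · exact absurd (commutatorElement_eq_one_iff_mul_comm.1 h1) hg
  · rw [← h1]; simp [commutatorElement_def]

theorem map_z {F : Type*} [Group F] (f : E ≃* F) : Ex F (f z) := by
  refine ⟨fun h1 => h.ne (f.injective (h1.trans (map_one f).symm)), by rw [← map_mul, h.sq_z,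
    map_one], fun x => ?_, fun x => ?_⟩
  · obtain ⟨y, rfl⟩ := f.surjective x
    rw [← map_one f, f.injective.eq_iff, f.injective.eq_iff, ← h.mem_center y]
    simp only [Subgroup.mem_center_iff]
    constructor
    · intro h1 g
      apply f.injective
      rw [map_mul, map_mul, h1]
    · intro h1 g
      obtain ⟨g, rfl⟩ := f.surjective g
      rw [← map_mul, ← map_mul, h1]
  · obtain ⟨y, rfl⟩ := f.surjective x
    have := Subgroup.mem_center_iff.1 (h.sq_mem y)
    rw [Subgroup.mem_center_iff]
    intro g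
    obtain ⟨g, rfl⟩ := f.surjective g
    rw [← map_mul, ← map_mul, ← map_mul, this]

theorem aut_z (φ : MulAut E) : φ z = z := by
  rcases (h.mem_center (φ z)).1 (((h.map_z φ).mem_center _).2 (Or.inr rfl)) with h1 | h1
  · exact absurd (φ.injective (h1.trans (map_one φ).symm)) h.ne
  · exact h1

theorem aut_center (φ : MulAut E) {x : E} (hx : x ∈ Subgroup.center E) : φ x = x := by
  rcases (h.mem_center x).1 hx with rfl | rfl
  · exact map_one φ
  · exact h.aut_z φ

omit h in
/-- The automorphism induced on the quotient by the centre. -/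
def qmap (φ : MulAut E) : E ⧸ Subgroup.center E →* E ⧸ Subgroup.center E :=
  QuotientGroup.map _ _ φ.toMonoidHom fun x hx => by
    rw [Subgroup.mem_comap, Subgroup.mem_center_iff]
    intro g
    obtain ⟨g, rfl⟩ := φ.surjective g
    change φ g * φ x = φ x * φ g
    rw [← map_mul, ← map_mul, Subgroup.mem_center_iff.1 hx g]

theorem norm_trick (X : Subgroup (MulAut E)) [Finite X] (hodd : Odd (Nat.card X))
    (D B : Subgroup E) (hB : Subgroup.center E ≤ B) (hD : ∀ x ∈ X, ∀ d ∈ D, x d ∈ D)
    (hfix : ∀ f ∈ D, (∀ x ∈ X, x f * f⁻¹ ∈ Subgroup.center E) → f ∈ B)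
    {e : E} (he : e ∈ D) (hmove : ∀ x ∈ X, x e * e⁻¹ ∈ B) : e ∈ B := by
  classical
  haveI := Fintype.ofFinite X
  letI : CommGroup (E ⧸ Subgroup.center E) :=
    { (inferInstance : Group (E ⧸ Subgroup.center E)) with mul_comm := h.quot_comm }
  set mk := QuotientGroup.mk' (Subgroup.center E) with hmk
  set N : E ⧸ Subgroup.center E := ∏ x : X, mk ((x : MulAut E) e) with hN
  have hND : N ∈ D.map mk :=
    Subgroup.prod_mem _ fun x _ => ⟨_, hD _ x.2 _ he, rfl⟩
  obtain ⟨f, hfD, hf⟩ := hND
  have hfB : f ∈ B := by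
    refine hfix f hfD fun y hy => ?_
    have h1 : qmap y N = N := by
      rw [hN, map_prod]
      exact Fintype.prod_equiv (Equiv.mulLeft (⟨y, hy⟩ : X)) _ _ fun x => rfl
    rw [← hf] at h1
    rw [← QuotientGroup.eq_one_iff, QuotientGroup.mk_mul, QuotientGroup.mk_inv]
    exact mul_inv_eq_one.2 h1
  have h2 : ∀ x : X, mk ((x : MulAut E) e) * mk e ∈ B.map mk := by
    intro x
    refine ⟨_, hmove _ x.2, ?_⟩
    rw [map_mul, map_inv, h.quot_inv]
  have h3 : N * mk e ∈ B.map mk := by
    have h4 := Subgroup.prod_mem _ (fun x _ => h2 x) (t := (Finset.univ : Finset X))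
    rw [Finset.prod_mul_distrib, Finset.prod_const, Finset.card_univ,
      ← Nat.card_eq_fintype_card] at h4
    obtain ⟨k, hk⟩ := hodd
    rwa [hk, pow_succ, pow_mul, pow_two, h.quot_sq, one_pow, one_mul] at h4
  have h5 : mk e ∈ B.map mk := by
    have h6 := (B.map mk).mul_mem ((B.map mk).inv_mem (⟨f, hfB, hf⟩ : N ∈ B.map mk)) h3
    rwa [inv_mul_cancel_left] at h6
  obtain ⟨b, hb, hbe⟩ := h5
  have : b⁻¹ * e ∈ Subgroup.center E := by
    rw [← QuotientGroup.eq_one_iff, QuotientGroup.mk_mul, QuotientGroup.mk_inv]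
    exact inv_mul_eq_one.2 hbe
  simpa using B.mul_mem hb (hB this)

/-- The trace function of a representation where `z` acts as `-1`. -/
theorem trace_eq {ι : Type*} [Fintype ι] [DecidableEq ι] (ρ : E →* Matrix ι ι ℂ)
    (hz : ρ z = -1) (x : E) [Decidable (x = 1)] [Decidable (x = z)] :
    (ρ x).trace = if x = 1 then (Fintype.card ι : ℂ) else if x = z then -(Fintype.card ι : ℂ)
      else 0 := by
  split_ifs with h1 h2
  · simp [h1]
  · simp [h2, hz]
  · obtain ⟨g, hg⟩ := h.exists_conj (fun hc => ((h.mem_center x).1 hc).elim h1 h2)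
    have e1 : (ρ (g * x * g⁻¹)).trace = (ρ x).trace := by
      rw [map_mul, Matrix.trace_mul_comm, ← map_mul, ← mul_assoc, inv_mul_cancel, one_mul]
    rw [hg, map_mul, hz, neg_one_mul, Matrix.trace_neg] at e1
    linear_combination (-1 / 2 : ℂ) * e1

end Ex

end CfsgLib.ExtraSplit59
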