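import Cfsg.Agent.ExtraSplit59.Good
import Cfsg.Agent.Chars.Basic
import Cfsg.Agent.Eq.Def_Characters
import Cfsg.Agent.S0886

/-!
The faithful character of `E`, and the case where the image of `S` is cyclic.
-/

namespace CfsgLib.ExtraSplit59

open scoped Classical
open Matrix Cfsg

universe u

variable {E : Type u} [Group E]

/-- The matrix form of a representation on a coordinate space. -/
noncomputable def matRep {n : ℕ} (σ : Representation ℂ E (Fin n → ℂ)) :
    E →* Matrix (Fin n) (Fin n) ℂ :=
  (LinearMap.toMatrixAlgEquiv' (R := ℂ) (n := Fin n)).toMonoidHom.comp σ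

theorem matRep_trace {n : ℕ} (σ : Representation ℂ E (Fin n → ℂ)) (x : E) :
    (matRep σ x).trace = σ.character x := by
  rw [Representation.character, LinearMap.trace_eq_matrix_trace ℂ (Pi.basisFun ℂ (Fin n)),
    LinearMap.toMatrix_eq_toMatrix']
  rfl

/-- The trace of a matrix representation is a character. -/
theorem isCharacter_trace {ι : Type u} [Fintype ι] [DecidableEq ι] (ρ : E →* Matrix ι ι ℂ) :
    IsCharacter E (fun x => (ρ x).trace) := by
  let σ : Representation ℂ E (ι → ℂ) :=
    (Matrix.toLinAlgEquiv' (R := ℂ) (n := ι)).toMonoidHom.comp ρ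
  have : σ.character = fun x => (ρ x).trace := by
    funext x
    rw [Representation.character, LinearMap.trace_eq_matrix_trace ℂ (Pi.basisFun ℂ ι),
      LinearMap.toMatrix_eq_toMatrix']
    change (LinearMap.toMatrix' (Matrix.toLin' (ρ x))).trace = _
    rw [LinearMap.toMatrix'_toLin']
  rw [← this]
  exact CfsgLib.Chars.isCharacter_character _

/-- An involutory matrix of trace minus the dimension is minus one. -/
theorem eq_neg_one_of_trace {n : ℕ} (A : Matrix (Fin n) (Fin n) ℂ) (h2 : A * A = 1)
    (ht : A.trace = -(n : ℂ)) : A = -1 := by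
  let P : Matrix (Fin n) (Fin n) ℂ := (2⁻¹ : ℂ) • (1 + A)
  have hP : P * P = P := by
    simp only [P, smul_mul_smul_comm, mul_add, add_mul, one_mul, mul_one, h2]
    module
  have hproj : LinearMap.IsProj (LinearMap.range (Matrix.toLin' P)) (Matrix.toLin' P) :=
    (LinearMap.isProj_range_iff_isIdempotentElem _).2 (by
      change Matrix.toLin' P * Matrix.toLin' P = Matrix.toLin' P
      rw [Module.End.mul_eq_comp, ← Matrix.toLin'_mul, hP])
  have h0 := hproj.trace
  rw [Matrix.trace_toLin'_eq, show P.trace = 0 by simp [P, ht]] at h0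
  have h1 : Matrix.toLin' P = 0 :=
    LinearMap.range_eq_bot.1 (Submodule.finrank_eq_zero.1 (by exact_mod_cast h0.symm))
  have h3 : P = 0 := Matrix.toLin'.injective (by rw [h1, map_zero])
  simp only [P, smul_eq_zero, inv_eq_zero, OfNat.ofNat_ne_zero, false_or] at h3
  exact eq_neg_of_add_eq_zero_right h3

omit [Group E] in
theorem sum_apply {α : Type*} (s : Multiset α) (f : α → E → ℂ) (y : E) :
    (s.map f).sum y = (s.map fun a => f a y).sum := by
  induction s using Multiset.induction with
  | empty => simp
  | cons a r ih => simp [ih]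

variable [Finite E] {z : E}

theorem exists_nat_degree_sum (t : Multiset (IrrCharacter E)) :
    ∃ k : ℕ, (t.map fun φ : IrrCharacter E => (φ : E → ℂ) 1).sum = k := by
  induction t using Multiset.induction with
  | empty => exact ⟨0, by simp⟩
  | cons b r ih =>
    obtain ⟨i, hi⟩ := CfsgLib.Chars.exists_natCast_map_one (CfsgLib.Chars.isCharacter_coe b)
    obtain ⟨l, hl⟩ := ih
    exact ⟨i + l, by simp [hi, hl]⟩

/-- An irreducible character not trivial at `z` negates it and has degree squared `|E| / 2`. -/
theorem irr_data (h : Ex E z) (χ : IrrCharacter E) (hχ : (χ : E → ℂ) z ≠ (χ : E → ℂ) 1) :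
    ∃ (n : ℕ) (ρ : E →* Matrix (Fin n) (Fin n) ℂ), 0 < n ∧ (∀ x, (ρ x).trace = (χ : E → ℂ) x) ∧
      ρ z = -1 ∧ 2 * n ^ 2 = Nat.card E := by
  obtain ⟨n, σ, hσ, hc⟩ := χ.2
  have h1 : (χ : E → ℂ) 1 = n := by rw [← hc, Representation.char_one]; simp
  have hn : 0 < n := Nat.pos_of_ne_zero fun h0 =>
    CfsgLib.Chars.map_one_ne_zero χ (by simp [h1, h0])
  have hρz : matRep σ z = -1 := by
    haveI := hσ
    let F : Representation.IntertwiningMap σ σ :=
      Representation.IntertwiningMap.centralMul σ z
        (Submonoid.mem_center_iff.mpr (Subgroup.mem_center_iff.mp h.z_mem))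
    obtain ⟨c, hc'⟩ :=
      (Representation.IsIrreducible.algebraMap_intertwiningMap_bijective_of_isAlgClosed
        (ρ := σ)).2 F
    have hT : σ z = c • 1 := by
      have := congrArg Representation.IntertwiningMap.toLinearMap hc'
      simp [F, Representation.IntertwiningMap.centralMul] at this
      exact this.symm
    haveI : NeZero n := ⟨hn.ne'⟩
    have hcc : c * c = 1 := by
      have h2 : σ z * σ z = 1 := by rw [← map_mul, h.sq_z, map_one]
      rw [hT, smul_mul_smul_comm, one_mul] at h2
      have h3 := congrFun (LinearMap.congr_fun h2 (fun _ => (1 : ℂ))) 0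
      simpa using h3
    rcases mul_self_eq_one_iff.1 hcc with rfl | rfl
    · exact absurd (by rw [← hc, Representation.character, Representation.character, hT,
        map_one, one_smul]) hχ
    · change LinearMap.toMatrixAlgEquiv' (σ z) = -1
      rw [hT]
      simp
  refine ⟨n, matRep σ, hn, fun x => by rw [matRep_trace, hc], hρz, ?_⟩
  haveI := Fintype.ofFinite E
  have hsum := CfsgLib.Chars.sum_mul_map_inv χ χ
  rw [if_pos rfl] at hsum
  have hval : ∀ x, (χ : E → ℂ) x * (χ : E → ℂ) x⁻¹ =
      if x ∈ ({1, z} : Finset E) then ((n ^ 2 : ℕ) : ℂ) else 0 := by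
    intro x
    rw [← hc, ← matRep_trace, ← matRep_trace, h.trace_eq _ hρz, h.trace_eq _ hρz]
    by_cases hx : x = 1
    · simp [hx, pow_two]
    by_cases hx' : x = z
    · subst hx'; simp [hx, h.z_inv, pow_two]
    · simp [hx, hx']
  rw [Finset.sum_congr rfl fun x _ => hval x, Finset.sum_ite_mem, Finset.univ_inter,
    Finset.sum_const, Finset.card_pair h.ne.symm, nsmul_eq_mul] at hsum
  exact_mod_cast hsum

theorem exists_irr (h : Ex E z) :
    ∃ χ : IrrCharacter E, (χ : E → ℂ) z ≠ (χ : E → ℂ) 1 := by
  obtain ⟨χ, hχ⟩ := CfsgLib.Chars.exists_not_le_charKer (G := E) (N := Subgroup.zpowers z)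
    (fun h0 => h.ne (Subgroup.zpowers_eq_bot.1 h0))
  rw [Subgroup.zpowers_le, CfsgLib.Chars.mem_charKer_iff (CfsgLib.Chars.isCharacter_coe χ)] at hχ
  exact ⟨χ, hχ⟩

/-- Representations negating `z` of degree at most that of the faithful character have that
character as trace. -/
theorem trace_eq_irr (h : Ex E z) (χ : IrrCharacter E) (hχ : (χ : E → ℂ) z ≠ (χ : E → ℂ) 1)
    {ι : Type u} [Fintype ι] [DecidableEq ι] [Nonempty ι] (ρ : E →* Matrix ι ι ℂ)
    (hz : ρ z = -1) (hd : 2 * Fintype.card ι ^ 2 ≤ Nat.card E) (x : E) :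
    (ρ x).trace = (χ : E → ℂ) x := by
  obtain ⟨n, τ, hn, htr, hτ, hcard⟩ := irr_data h χ hχ
  have hle : Fintype.card ι ≤ n := (Nat.pow_le_pow_iff_left two_ne_zero).1 (by omega)
  obtain ⟨s, hs⟩ := CfsgLib.Chars.exists_multiset_irr (isCharacter_trace ρ)
  have hval : ∀ y, (ρ y).trace = (s.map fun ψ : IrrCharacter E => (ψ : E → ℂ) y).sum := by
    intro y
    rw [← sum_apply]
    exact congrFun hs y
  obtain ⟨ψ, hψs, hψ⟩ : ∃ ψ ∈ s, (ψ : E → ℂ) z ≠ (ψ : E → ℂ) 1 := by
    by_contra hcon
    push Not at hcon
    have : (ρ z).trace = (ρ 1).trace := by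
      rw [hval, hval, Multiset.map_congr rfl hcon]
    rw [hz, map_one, trace_neg, trace_one, neg_eq_self] at this
    exact Fintype.card_ne_zero (by exact_mod_cast this)
  obtain ⟨m, τ', hm, htr', hτ', hcard'⟩ := irr_data h ψ hψ
  have hmn : m = n := (Nat.pow_left_injective two_ne_zero) (by change m ^ 2 = n ^ 2; omega)
  obtain ⟨t, rfl⟩ := Multiset.exists_cons_of_mem hψs
  have h1 := hval 1
  simp only [Multiset.map_cons, Multiset.sum_cons, map_one, trace_one] at h1
  obtain ⟨k, hk⟩ := exists_nat_degree_sum t
  have hψ1 : (ψ : E → ℂ) 1 = n := by rw [← htr', map_one, trace_one, Fintype.card_fin, hmn]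
  rw [hψ1, hk] at h1
  have hcι : Fintype.card ι = n + k := by exact_mod_cast h1
  have hcn : Fintype.card ι = n := by omega
  rw [h.trace_eq ρ hz, ← htr, h.trace_eq τ hτ, hcn, Fintype.card_fin]

/-- A cyclic group of automorphisms. -/
theorem good_cyclic (h : Ex E z) {S : Type u} [Group S] (φ : S →* MulAut E)
    (hcyc : IsCyclic φ.range) : Good z φ := by
  suffices Good z φ.range.subtype by
    exact this.comp φ.rangeRestrict
  haveI := hcyc
  let G := E ⋊[φ.range.subtype] φ.range
  haveI : Finite (MulAut E) := Finite.of_injective _ DFunLike.coe_injective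
  haveI : Finite G := Finite.of_equiv _ SemidirectProduct.equivProd.symm
  let inl : E →* G := SemidirectProduct.inl
  haveI hN : inl.range.Normal := by
    rw [show inl.range = (SemidirectProduct.rightHom : G →* φ.range).ker from
      SemidirectProduct.range_inl_eq_ker_rightHom]
    infer_instance
  have hq : IsCyclic (G ⧸ inl.range) :=
    isCyclic_of_surjective _
      ((QuotientGroup.quotientMulEquivOfEq SemidirectProduct.range_inl_eq_ker_rightHom).trans
        (QuotientGroup.quotientKerEquivOfSurjective (SemidirectProduct.rightHom : G →* φ.range)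
          SemidirectProduct.rightHom_surjective)).symm.surjective
  let e : E ≃* inl.range := MonoidHom.ofInjective SemidirectProduct.inl_injective
  obtain ⟨χ, hχ⟩ := exists_irr h
  obtain ⟨n, τ, hn, htr, hτ, hcard⟩ := irr_data h χ hχ
  have hϑ : IsIrrCharacter inl.range (fun x => (χ : E → ℂ) (e.symm x)) :=
    CfsgLib.Chars.isIrrCharacter_comp χ.2 e.symm.toMonoidHom e.symm.surjective
  obtain ⟨η, ⟨m, σ, hσ, hη⟩, hres⟩ := Cfsg.Agent.S0886.result inl.range hq _ hϑ (by
    intro g x
    obtain ⟨x, rfl⟩ := e.surjective x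
    let α : MulAut E := MulAut.conj g.left * (g.right : MulAut E)
    have hα : (⟨g * (e x : G) * g⁻¹, hN.conj_mem _ (e x).2 g⟩ : inl.range) = e (α x) := by
      apply Subtype.ext
      change g * inl x * g⁻¹ = inl (α x)
      have h1 : inl ((g.right : MulAut E) x) = SemidirectProduct.inr g.right * inl x *
          (SemidirectProduct.inr g.right)⁻¹ := by
        rw [← map_inv]; exact SemidirectProduct.inl_aut g.right x
      rw [show g * inl x * g⁻¹ = (SemidirectProduct.inl g.left * SemidirectProduct.inr g.right) *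
          inl x * (SemidirectProduct.inl g.left * SemidirectProduct.inr g.right)⁻¹ by
        rw [SemidirectProduct.inl_left_mul_inr_right], MulAut.mul_apply, MulAut.conj_apply,
        map_mul, map_mul, h1, map_inv]
      change _ = SemidirectProduct.inl g.left * _ * _
      simp only [inl, _root_.mul_inv_rev, mul_assoc]
    rw [hα]
    simp only [MulEquiv.symm_apply_apply]
    rw [← htr, ← htr, h.trace_eq τ hτ, h.trace_eq τ hτ]
    have hz := h.aut_z α
    by_cases hx : x = 1
    · simp [hx]
    by_cases hx' : x = z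
    · simp [hx', hz]
    · have h1 : α x ≠ 1 := fun h1 => hx (α.injective (h1.trans (map_one α).symm))
      have h2 : α x ≠ z := fun h1 => hx' (α.injective (h1.trans hz.symm))
      simp [hx, hx', h1, h2])
  have hres' : ∀ x : E, σ.character (inl x) = (χ : E → ℂ) x := by
    intro x
    have := hres (e x)
    rw [← hη] at this
    simp only [MulEquiv.symm_apply_apply] at this
    exact this
  have hm : m = n := by
    have := hres' 1
    rw [map_one, Representation.char_one, ← htr, map_one, trace_one] at this
    simpa using this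
  subst hm
  let M : G →* Matrix (ULift.{u} (Fin m)) (ULift.{u} (Fin m)) ℂ :=
    (Matrix.reindexAlgEquiv ℂ ℂ Equiv.ulift.{u}.symm).toMonoidHom.comp (matRep σ)
  refine ⟨ULift.{u} (Fin m), inferInstance, inferInstance, M.comp inl,
    M.comp SemidirectProduct.inr, ⟨⟨⟨0, hn⟩⟩⟩, ?_, ?_, fun s x => ?_⟩
  · have hz : (matRep (σ.comp inl)) z = -1 := by
      have hirr : (Representation.character (σ.comp inl : Representation ℂ E (Fin m → ℂ))) = (χ : E → ℂ) := funext hres'
      have hval : (Representation.character (σ.comp inl : Representation ℂ E (Fin m → ℂ))) z = -((Representation.character (σ.comp inl : Representation ℂ E (Fin m → ℂ))) 1) := by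
        rw [hirr, ← htr, ← htr, hτ, map_one, trace_neg]
      exact eq_neg_one_of_trace (matRep (σ.comp inl) z)
        (by rw [← map_mul, h.sq_z, map_one])
        (by rw [matRep_trace, hval, Representation.char_one]; simp)
    change Matrix.reindexAlgEquiv ℂ ℂ Equiv.ulift.{u}.symm (matRep (σ.comp inl) z) = -1
    rw [hz, map_neg, map_one]
  · simp [hcard]
  · change M (SemidirectProduct.inr s) * M (inl x) = M (inl ((s : MulAut E) x)) *
      M (SemidirectProduct.inr s)
    rw [← map_mul, ← map_mul]
    congr 1
    have h1 : inl ((s : MulAut E) x) = SemidirectProduct.inr s * inl x *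
        SemidirectProduct.inr s⁻¹ := SemidirectProduct.inl_aut s x
    rw [h1, map_inv, inv_mul_cancel_right]

end CfsgLib.ExtraSplit59
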