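import Mathlib.LinearAlgebra.Matrix.Trace
import Mathlib.LinearAlgebra.Matrix.Kronecker
import Mathlib.Analysis.Complex.Basic

/-!
Monomial and tensor combinations of families of matrices indexed by a permuted set.
-/

namespace CfsgLib.ExtraSplit59

open Matrix

universe u v

variable {Q : Type u} {ι : Type v} [Fintype Q] [DecidableEq Q] [Fintype ι] [DecidableEq ι]

/-- Block monomial matrix. -/
def monMat (σ : Equiv.Perm Q) (A : Q → Matrix ι ι ℂ) : Matrix (Q × ι) (Q × ι) ℂ :=
  Matrix.of fun x y => if x.1 = σ y.1 then A y.1 x.2 y.2 else 0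

theorem monMat_one : monMat (1 : Equiv.Perm Q) (fun _ => (1 : Matrix ι ι ℂ)) = 1 := by
  ext x y
  obtain ⟨q, i⟩ := x
  obtain ⟨r, j⟩ := y
  by_cases h : q = r
  · subst h; simp [monMat, Matrix.one_apply]
  · simp [monMat, h]

theorem monMat_mul (σ τ : Equiv.Perm Q) (A B : Q → Matrix ι ι ℂ) :
    monMat σ A * monMat τ B = monMat (σ * τ) (fun q => A (τ q) * B q) := by
  ext x y
  rw [Matrix.mul_apply, Fintype.sum_prod_type, Finset.sum_eq_single (τ y.1)]
  · by_cases h : x.1 = σ (τ y.1)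
    · simp [monMat, h, Matrix.mul_apply]
    · simp [monMat, h]
  · intro b _ hb
    simp [monMat, hb]
  · simp

theorem monMat_neg (σ : Equiv.Perm Q) (A : Q → Matrix ι ι ℂ) :
    monMat σ (fun q => -A q) = -monMat σ A := by
  ext x y
  by_cases h : x.1 = σ y.1 <;> simp [monMat, h]

/-- Tensor monomial matrix. -/
def piMat (σ : Equiv.Perm Q) (A : Q → Matrix ι ι ℂ) : Matrix (Q → ι) (Q → ι) ℂ :=
  Matrix.of fun f e => ∏ q, A q (f (σ q)) (e q)

theorem piMat_one : piMat (1 : Equiv.Perm Q) (fun _ => (1 : Matrix ι ι ℂ)) = 1 := by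
  ext f e
  by_cases h : f = e
  · subst h
    change ∏ q, (1 : Matrix ι ι ℂ) (f q) (f q) = (1 : Matrix (Q → ι) (Q → ι) ℂ) f f
    simp
  · obtain ⟨q, hq⟩ := Function.ne_iff.1 h
    rw [Matrix.one_apply_ne h]
    exact Finset.prod_eq_zero (Finset.mem_univ q) (by
      change (1 : Matrix ι ι ℂ) (f q) (e q) = 0
      exact Matrix.one_apply_ne hq)

theorem piMat_mul (σ τ : Equiv.Perm Q) (A B : Q → Matrix ι ι ℂ) :
    piMat σ A * piMat τ B = piMat (σ * τ) (fun q => A (τ q) * B q) := by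
  ext f e
  simp only [piMat, Matrix.of_apply, Matrix.mul_apply, Finset.prod_sum, Equiv.Perm.mul_apply]
  refine Finset.sum_bij' (fun g _ => fun q _ => g (τ q)) (fun g _ => fun q => g (τ.symm q)
    (Finset.mem_univ _)) ?_ ?_ ?_ ?_ ?_
  · intro g _; simp
  · intro g _; simp
  · intro g _; funext q; simp
  · intro g _
    funext q hq
    simp
  · intro g _
    rw [Finset.prod_attach (s := Finset.univ) (f := fun q => A (τ q) (f (σ (τ q))) (g (τ q)) * B q (g (τ q)) (e q)),
      Finset.prod_mul_distrib]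
    congr 1
    exact (Equiv.prod_comp τ (fun q => A q (f (σ q)) (g q))).symm

omit [DecidableEq Q] [Fintype ι] [DecidableEq ι] in
theorem piMat_smul (σ : Equiv.Perm Q) (c : Q → ℂ) (A : Q → Matrix ι ι ℂ) :
    piMat σ (fun q => c q • A q) = (∏ q, c q) • piMat σ A := by
  ext f e
  simp [piMat, Finset.prod_mul_distrib]

end CfsgLib.ExtraSplit59
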