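import Cfsg.Agent.ExtraSplit59.Basic
import Cfsg.Agent.ExtraSplit59.Mat
import Mathlib.GroupTheory.SemidirectProduct
import Mathlib.GroupTheory.NoncommPiCoprod
import Mathlib.GroupTheory.NoncommCoprod
import Mathlib.GroupTheory.GroupAction.Quotient
import Mathlib.LinearAlgebra.Matrix.Kronecker

/-!
Representations of `E` compatible with a group of automorphisms: binary tensor product,
descent along an invariant subgroup, and tensor induction.
-/

namespace CfsgLib.ExtraSplit59

open scoped Classical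
open Matrix
open scoped Kronecker

universe u

variable {E : Type u} [Group E] {S : Type u} [Group S]

/-- There is a representation of `E` of the least degree, negating `z`, which is intertwined by a
representation of `S`. -/
def Good (z : E) (φ : S →* MulAut E) : Prop :=
  ∃ (ι : Type u) (_ : Fintype ι) (_ : DecidableEq ι) (ρ : E →* Matrix ι ι ℂ)
    (T : S →* Matrix ι ι ℂ),
    Nonempty ι ∧ ρ z = -1 ∧ 2 * Fintype.card ι ^ 2 ≤ Nat.card E ∧
      ∀ (s : S) (e : E), T s * ρ e = ρ (φ s e) * T s

theorem Good.comp {z : E} {φ : S →* MulAut E} (h : Good z φ) {S' : Type u} [Group S']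
    (f : S' →* S) : Good z (φ.comp f) := by
  obtain ⟨ι, i1, i2, ρ, T, h1, h2, h3, h4⟩ := h
  exact ⟨ι, i1, i2, ρ, T.comp f, h1, h2, h3, fun s e => h4 (f s) e⟩

/-- Restriction of automorphisms to an invariant subgroup. -/
def resHom (φ : S →* MulAut E) (A : Subgroup E) (hA : ∀ s : S, ∀ a ∈ A, φ s a ∈ A) :
    S →* MulAut A where
  toFun s :=
    { toFun := fun a => ⟨φ s a, hA s a a.2⟩
      invFun := fun a => ⟨φ s⁻¹ a, hA s⁻¹ a a.2⟩
      left_inv := fun a => Subtype.ext (by simp [map_inv, MulAut.inv_apply_self])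
      right_inv := fun a => Subtype.ext (by simp [map_inv, MulAut.apply_inv_self])
      map_mul' := fun a b => Subtype.ext (map_mul (φ s) (a : E) (b : E)) }
  map_one' := by
    ext a
    simp
  map_mul' s t := by
    ext a
    simp

@[simp]
theorem resHom_apply (φ : S →* MulAut E) (A : Subgroup E) (hA) (s : S) (a : A) :
    ((resHom φ A hA s a : A) : E) = φ s a := rfl

theorem Ex.card_center {z : E} (h : Ex E z) : Nat.card (Subgroup.center E) = 2 := by
  rw [Nat.card_eq_two_iff]
  refine ⟨1, ⟨z, h.z_mem⟩, fun h1 => h.ne (congrArg Subtype.val h1).symm, ?_⟩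
  rw [Set.eq_univ_iff_forall]
  intro x
  rcases (h.mem_center x.1).1 x.2 with h1 | h1
  · exact Or.inl (Subtype.ext h1)
  · exact Or.inr (Subtype.ext h1)

theorem neg_kron {ι κ : Type u} (A : Matrix ι ι ℂ) (B : Matrix κ κ ℂ) : (-A) ⊗ₖ B = -(A ⊗ₖ B) := by
  ext x y
  simp

theorem kron_neg {ι κ : Type u} (A : Matrix ι ι ℂ) (B : Matrix κ κ ℂ) : A ⊗ₖ (-B) = -(A ⊗ₖ B) := by
  ext x y
  simp

/-- Tensor product of two commuting invariant factors. -/
theorem good_tensor [Finite E] {z : E} (h : Ex E z) (φ : S →* MulAut E) (A B : Subgroup E)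
    (hA : ∀ s : S, ∀ a ∈ A, φ s a ∈ A) (hB : ∀ s : S, ∀ b ∈ B, φ s b ∈ B)
    (hzA : z ∈ A) (hzB : z ∈ B) (hcomm : ∀ a ∈ A, ∀ b ∈ B, a * b = b * a)
    (hint : A ⊓ B ≤ Subgroup.center E) (hsup : ∀ e : E, ∃ a ∈ A, ∃ b ∈ B, a * b = e)
    (gA : Good (⟨z, hzA⟩ : A) (resHom φ A hA)) (gB : Good (⟨z, hzB⟩ : B) (resHom φ B hB)) :
    Good z φ := by
  obtain ⟨ι, i1, i2, ρA, TA, a1, a2, a3, a4⟩ := gA
  obtain ⟨κ, j1, j2, ρB, TB, b1, b2, b3, b4⟩ := gB
  let μ : A × B →* E := A.subtype.noncommCoprod B.subtype fun a b => hcomm a a.2 b b.2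
  have hμ : Function.Surjective μ := by
    intro e
    obtain ⟨a, ha, b, hb, e1⟩ := hsup e
    exact ⟨(⟨a, ha⟩, ⟨b, hb⟩), e1⟩
  let R : A × B →* Matrix (ι × κ) (ι × κ) ℂ :=
    { toFun := fun p => ρA p.1 ⊗ₖ ρB p.2
      map_one' := by simp
      map_mul' := fun p q => by simp [Matrix.mul_kronecker_mul] }
  have hker : ∀ p ∈ μ.ker, p = 1 ∨ p = (⟨z, hzA⟩, ⟨z, hzB⟩) := by
    rintro ⟨⟨a, ha⟩, ⟨b, hb⟩⟩ hp
    have hab : a * b = 1 := hp
    have hb' : b = a⁻¹ := eq_inv_of_mul_eq_one_right hab
    rcases (h.mem_center a).1 (hint ⟨ha, by simpa [hb'] using B.inv_mem hb⟩) with rfl | rfl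
    · left; rw [inv_one] at hb'; subst hb'; rfl
    · right; rw [h.z_inv] at hb'; subst hb'; rfl
  have hle : μ.ker ≤ R.toHomUnits.ker := by
    intro p hp
    rw [MonoidHom.mem_ker]
    apply Units.ext
    rcases hker p hp with rfl | rfl
    · simp [R]
    · change ρA ⟨z, hzA⟩ ⊗ₖ ρB ⟨z, hzB⟩ = 1
      rw [a2, b2, neg_kron, kron_neg, neg_neg, Matrix.one_kronecker_one]
  let ρ : E →* Matrix (ι × κ) (ι × κ) ℂ :=
    (Units.coeHom _).comp (μ.liftOfSurjective hμ ⟨R.toHomUnits, hle⟩)
  have hρ : ∀ p, ρ (μ p) = R p := fun p => by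
    exact congrArg Units.val (MonoidHom.liftOfRightInverse_comp_apply μ _
      (Function.rightInverse_surjInv hμ) ⟨R.toHomUnits, hle⟩ p)
  let T : S →* Matrix (ι × κ) (ι × κ) ℂ :=
    { toFun := fun s => TA s ⊗ₖ TB s
      map_one' := by simp
      map_mul' := fun s t => by simp [Matrix.mul_kronecker_mul] }
  refine ⟨ι × κ, inferInstance, inferInstance, ρ, T, inferInstance, ?_, ?_, fun s e => ?_⟩
  · have : z = μ (⟨z, hzA⟩, 1) := (mul_one z).symm
    rw [this, hρ]
    change ρA ⟨z, hzA⟩ ⊗ₖ ρB 1 = -1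
    rw [a2, map_one, neg_kron, Matrix.one_kronecker_one]
  · have hk : Nat.card μ.ker ≤ 2 := by
      refine le_trans (Nat.card_le_card_of_injective
        (fun p : μ.ker => decide (p.1 = 1)) fun p q hpq => Subtype.ext ?_) (by simp)
      simp only [decide_eq_decide] at hpq
      rcases hker p.1 p.2 with hp | hp <;> rcases hker q.1 q.2 with hq | hq
      · rw [hp, hq]
      · rw [hp, hpq.1 hp]
      · rw [hpq.2 hq, hq]
      · rw [hp, hq]
    have hc := μ.ker.card_mul_index
    rw [Subgroup.index_ker, MonoidHom.range_eq_top.2 hμ, Subgroup.card_top, Nat.card_prod] at hc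
    rw [Fintype.card_prod, mul_pow]
    nlinarith [Nat.mul_le_mul a3 b3, hc, hk, Nat.card_pos (α := E)]
  · obtain ⟨⟨a, b⟩, rfl⟩ := hμ e
    have : φ s (μ (a, b)) = μ (resHom φ A hA s a, resHom φ B hB s b) :=
      map_mul (φ s) (a : E) (b : E)
    rw [this, hρ, hρ]
    change (TA s ⊗ₖ TB s) * (ρA a ⊗ₖ ρB b) = (ρA _ ⊗ₖ ρB _) * (TA s ⊗ₖ TB s)
    rw [← Matrix.mul_kronecker_mul, ← Matrix.mul_kronecker_mul, a4, b4]

/-- Induction from the centraliser of an invariant subgroup `W`, along `C ⧸ W`. -/
theorem good_descend [Finite E] [Finite S] {z : E} (φ : S →* MulAut E) (C : Subgroup E)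
    (hC : ∀ s : S, ∀ c ∈ C, φ s c ∈ C) (hzC : z ∈ C) (hz : ∀ e : E, z * e = e * z)
    (hφz : ∀ s : S, φ s z = z) {F : Type u} [Group F] (π : C →* F) (hπ : Function.Surjective π)
    (ψ : S →* MulAut F) (heq : ∀ (s : S) (c : C), π (resHom φ C hC s c) = ψ s (π c))
    (hidx : C.index * Nat.card F ≤ Nat.card C) (g : Good (π ⟨z, hzC⟩) ψ) :
    Good z φ := by
  obtain ⟨ι, i1, i2, ρ', T', a1, a2, a3, a4⟩ := g
  let D : Subgroup (E ⋊[φ] S) :=
    { carrier := {g | g.left ∈ C}
      one_mem' := C.one_mem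
      mul_mem' := fun {a b} ha hb => by
        simp only [Set.mem_setOf_eq, SemidirectProduct.mul_left] at *
        exact C.mul_mem ha (hC _ _ hb)
      inv_mem' := fun {a} ha => by
        simp only [Set.mem_setOf_eq, SemidirectProduct.inv_left] at *
        exact hC _ _ (C.inv_mem ha) }
  let M : D →* Matrix ι ι ℂ :=
    { toFun := fun g => ρ' (π ⟨g.1.left, g.2⟩) * T' g.1.right
      map_one' := by
        have : (⟨((1 : D) : E ⋊[φ] S).left, (1 : D).2⟩ : C) = 1 := rfl
        rw [this]
        simp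
      map_mul' := fun a b => by
        have : (⟨(a * b).1.left, (a * b).2⟩ : C) =
            ⟨a.1.left, a.2⟩ * resHom φ C hC a.1.right ⟨b.1.left, b.2⟩ := Subtype.ext rfl
        rw [this, map_mul π, map_mul ρ', heq, show (a * b).1.right = a.1.right * b.1.right from rfl,
          map_mul T', mul_assoc, ← mul_assoc (ρ' (ψ _ _)), ← a4]
        simp only [mul_assoc] }
  let Q := (E ⋊[φ] S) ⧸ D
  haveI : Finite (E ⋊[φ] S) := Finite.of_equiv _ SemidirectProduct.equivProd.symm
  haveI : Fintype Q := Fintype.ofFinite Q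
  have hcoc : ∀ (g : E ⋊[φ] S) (q : Q), (Quotient.out (g • q))⁻¹ * g * Quotient.out q ∈ D := by
    intro g q
    rw [mul_assoc]
    apply QuotientGroup.eq.1
    rw [QuotientGroup.out_eq', ← MulAction.Quotient.coe_smul_out]
    rfl
  let hh : E ⋊[φ] S → Q → D := fun g q => ⟨_, hcoc g q⟩
  let I : E ⋊[φ] S →* Matrix (Q × ι) (Q × ι) ℂ :=
    { toFun := fun g => monMat (MulAction.toPerm g) fun q => M (hh g q)
      map_one' := by
        have h1 : (MulAction.toPerm (1 : E ⋊[φ] S) : Equiv.Perm Q) = 1 :=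
          Equiv.ext fun q => by simp
        have h2 : ∀ q : Q, hh 1 q = 1 := fun q => Subtype.ext (by simp [hh])
        simp [h1, h2, monMat_one]
      map_mul' := fun a b => by
        have h1 : (MulAction.toPerm (a * b) : Equiv.Perm Q) =
            MulAction.toPerm a * MulAction.toPerm b := Equiv.ext fun q => mul_smul a b q
        have h2 : ∀ q : Q, hh (a * b) q = hh a (b • q) * hh b q := fun q => Subtype.ext (by
          simp only [hh, Subgroup.coe_mul, mul_smul]
          group)
        simp [h1, h2, monMat_mul] }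
  refine ⟨Q × ι, inferInstance, inferInstance, I.comp SemidirectProduct.inl,
    I.comp SemidirectProduct.inr, inferInstance, ?_, ?_, fun s e => ?_⟩
  · have hcen : ∀ g : E ⋊[φ] S,
        SemidirectProduct.inl z * g = g * SemidirectProduct.inl z := by
      intro g
      ext <;> simp [hφz, hz]
    have hfix : ∀ q : Q, (SemidirectProduct.inl z : E ⋊[φ] S) • q = q := by
      intro q
      rw [← QuotientGroup.out_eq' q]
      change ((SemidirectProduct.inl z * Quotient.out q : E ⋊[φ] S) : Q) = _
      rw [hcen]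
      exact (QuotientGroup.eq.2 (by
        change (_ : E ⋊[φ] S).left ∈ C
        simpa using hzC)).symm
    have h1 : (MulAction.toPerm (SemidirectProduct.inl z : E ⋊[φ] S) : Equiv.Perm Q) = 1 :=
      Equiv.ext hfix
    have h2 : ∀ q : Q, M (hh (SemidirectProduct.inl z) q) = -1 := by
      intro q
      have : ((hh (SemidirectProduct.inl z) q : D) : E ⋊[φ] S) = SemidirectProduct.inl z := by
        simp only [hh, hfix]
        rw [mul_assoc, hcen, inv_mul_cancel_left]
      simp only [M, MonoidHom.coe_mk, OneHom.coe_mk, this, SemidirectProduct.left_inl,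
        SemidirectProduct.right_inl, map_one, mul_one, a2]
    change monMat (MulAction.toPerm (SemidirectProduct.inl z : E ⋊[φ] S))
      (fun q : Q => M (hh (SemidirectProduct.inl z) q)) = -1
    rw [h1, funext h2]
    exact (monMat_neg (1 : Equiv.Perm Q) fun _ : Q => (1 : Matrix ι ι ℂ)).trans
      (congrArg Neg.neg monMat_one)
  · have hD : Nat.card D = Nat.card C * Nat.card S := by
      rw [← Nat.card_prod]
      exact Nat.card_congr
        { toFun := fun g => (⟨g.1.left, g.2⟩, g.1.right)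
          invFun := fun p => ⟨⟨p.1.1, p.2⟩, p.1.2⟩
          left_inv := fun g => rfl
          right_inv := fun p => rfl }
    have hQ : Nat.card Q = C.index := by
      have h1 := D.card_mul_index
      rw [hD, SemidirectProduct.card, ← C.card_mul_index] at h1
      have : 0 < Nat.card C * Nat.card S := Nat.mul_pos Nat.card_pos Nat.card_pos
      exact Nat.eq_of_mul_eq_mul_left this (h1.trans (by ring))
    rw [Fintype.card_prod, ← Nat.card_eq_fintype_card (α := Q), hQ, ← C.card_mul_index]
    calc 2 * (C.index * Fintype.card ι) ^ 2 = C.index * (C.index * (2 * Fintype.card ι ^ 2)) := by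
          ring
      _ ≤ C.index * (C.index * Nat.card F) := by gcongr
      _ ≤ C.index * Nat.card C := by gcongr
      _ = _ := mul_comm _ _
  · change I (SemidirectProduct.inr s) * I (SemidirectProduct.inl e) =
      I (SemidirectProduct.inl (φ s e)) * I (SemidirectProduct.inr s)
    rw [← map_mul, ← map_mul, SemidirectProduct.inl_aut]
    congr 1
    simp [mul_assoc]

/-- Tensor induction from the stabiliser `S₀` of a block `A`. -/
theorem good_induced [Finite E] [Finite S] {z : E} (h : Ex E z) (φ : S →* MulAut E)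
    (A : Subgroup E) (S₀ : Subgroup S) (hA : ∀ s : S₀, ∀ a ∈ A, φ (s : S) a ∈ A) (hzA : z ∈ A)
    (hcenA : ∀ a ∈ A, (∀ b ∈ A, a * b = b * a) → a ∈ Subgroup.center E)
    (hcomm : ∀ s t : S, s⁻¹ * t ∉ S₀ → ∀ a ∈ A, ∀ b ∈ A, φ s a * φ t b = φ t b * φ s a)
    (hgen : ⨆ s : S, A.map (φ s).toMonoidHom = ⊤)
    (g : Good (⟨z, hzA⟩ : A) (resHom (φ.comp S₀.subtype) A hA)) : Good z φ := by
  obtain ⟨ι, i1, i2, ρ', T', a1, a2, a3, a4⟩ := g
  let Q := S ⧸ S₀
  haveI : Fintype Q := Fintype.ofFinite Q
  have hcoc : ∀ (s : S) (q : Q), (Quotient.out (s • q))⁻¹ * s * Quotient.out q ∈ S₀ := by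
    intro s q
    rw [mul_assoc]
    apply QuotientGroup.eq.1
    rw [QuotientGroup.out_eq', ← MulAction.Quotient.coe_smul_out]
    rfl
  let hh : S → Q → S₀ := fun s q => ⟨_, hcoc s q⟩
  let f : ∀ _ : Q, A →* E := fun q => (φ (Quotient.out q)).toMonoidHom.comp A.subtype
  have hf : Pairwise fun i j => ∀ (a b : A), Commute (f i a) (f j b) := by
    intro i j hij a b
    refine hcomm _ _ (fun hm => hij ?_) a a.2 b b.2
    rw [← QuotientGroup.out_eq' i, ← QuotientGroup.out_eq' j]
    exact QuotientGroup.eq.2 hm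
  let μ : (Q → A) →* E := MonoidHom.noncommPiCoprod f hf
  have hμ1 : ∀ (q : Q) (a : A), μ (Pi.mulSingle q a) = φ (Quotient.out q) a := fun q a =>
    (MonoidHom.noncommPiCoprod_mulSingle (ϕ := f) (hcomm := hf) q a).trans rfl
  let R : (Q → A) →* Matrix (Q → ι) (Q → ι) ℂ :=
    { toFun := fun a => piMat 1 fun q => ρ' (a q)
      map_one' := by simp [piMat_one]
      map_mul' := fun a b => by simp [piMat_mul] }
  have hμ : Function.Surjective μ := by
    rw [← MonoidHom.range_eq_top, eq_top_iff, ← hgen, iSup_le_iff]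
    rintro s _ ⟨a, ha, rfl⟩
    set q : Q := (s : Q)
    have hs : (Quotient.out q)⁻¹ * s ∈ S₀ := QuotientGroup.eq.1 (QuotientGroup.out_eq' q)
    refine ⟨Pi.mulSingle q ⟨_, hA ⟨_, hs⟩ a ha⟩, ?_⟩
    rw [hμ1]
    simp [map_mul, MulAut.mul_apply, MulAut.apply_inv_self]
  let zs : Q → Q → A := fun q => Pi.mulSingle q ⟨z, hzA⟩
  have hzs : ∀ q, μ (zs q) = z ∧ R (zs q) = -1 := by
    intro q
    refine ⟨by rw [hμ1]; exact h.aut_z _, ?_⟩
    let c : Q → ℂ := Function.update 1 q (-1)
    have : ∀ r, ρ' (zs q r) = c r • (1 : Matrix ι ι ℂ) := by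
      intro r
      by_cases hr : r = q
      · subst hr; simp [zs, c, a2]
      · simp [zs, c, hr]
    change piMat 1 _ = _
    rw [funext this, piMat_smul, piMat_one, Finset.prod_update_of_mem (Finset.mem_univ q)]
    simp
  let P : Submonoid (Q → A) :=
    { carrier := {a | (μ a = 1 ∧ R a = 1) ∨ (μ a = z ∧ R a = -1)}
      one_mem' := Or.inl ⟨map_one μ, map_one R⟩
      mul_mem' := by
        intro a b ha hb
        rcases ha with ⟨h1, h2⟩ | ⟨h1, h2⟩ <;> rcases hb with ⟨h3, h4⟩ | ⟨h3, h4⟩
        · exact Or.inl ⟨by simp [map_mul, h1, h3], by simp [map_mul, h2, h4]⟩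
        · exact Or.inr ⟨by simp [map_mul, h1, h3], by simp [map_mul, h2, h4]⟩
        · exact Or.inr ⟨by simp [map_mul, h1, h3], by simp [map_mul, h2, h4]⟩
        · exact Or.inl ⟨by simp [map_mul, h1, h3, h.sq_z], by simp [map_mul, h2, h4]⟩ }
  have hkcen : ∀ a ∈ μ.ker, ∀ q, a q = 1 ∨ a q = ⟨z, hzA⟩ := by
    intro a ha q
    set rest : Q → A := Function.update a q 1 with hrest
    have hsplit : a = Pi.mulSingle q (a q) * rest := by
      funext r
      by_cases hr : r = q
      · subst hr; simp [hrest]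
      · simp [hrest, hr]
    have hx : μ rest = (φ (Quotient.out q) (a q : E))⁻¹ := by
      have h1 : μ (Pi.mulSingle q (a q) * rest) = 1 := by rw [← hsplit]; exact ha
      rw [map_mul, hμ1] at h1
      exact eq_inv_of_mul_eq_one_right h1
    have hc : (a q : E) ∈ Subgroup.center E := by
      refine hcenA _ (a q).2 fun b hb => ?_
      have hcm : Commute (Pi.mulSingle q (⟨b, hb⟩ : A)) rest := by
        funext r
        by_cases hr : r = q
        · subst hr; simp [hrest]
        · simp [hr]
      have h1 := (hcm.map μ).eq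
      rw [hμ1, hx] at h1
      have h2 : Commute (φ (Quotient.out q) b) (φ (Quotient.out q) (a q : E)) := by
        have := (Commute.inv_right (a := φ (Quotient.out q) b) h1)
        simpa using this
      exact (φ (Quotient.out q)).injective (by rw [map_mul, map_mul]; exact h2.eq.symm)
    rcases (h.mem_center _).1 hc with h1 | h1
    · exact Or.inl (Subtype.ext h1)
    · exact Or.inr (Subtype.ext h1)
  have hle : μ.ker ≤ R.toHomUnits.ker := by
    intro a ha
    rw [MonoidHom.mem_ker]
    apply Units.ext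
    have hP : a ∈ P := by
      refine Submonoid.pi_mem_of_mulSingle_mem a fun q => ?_
      rcases hkcen a ha q with h1 | h1
      · rw [h1, Pi.mulSingle_one]; exact P.one_mem
      · rw [h1]; exact Or.inr (hzs q)
    rcases hP with ⟨_, h2⟩ | ⟨h1, _⟩
    · simpa using h2
    · exact absurd (h1.symm.trans ha) h.ne
  let ρ : E →* Matrix (Q → ι) (Q → ι) ℂ :=
    (Units.coeHom _).comp (μ.liftOfSurjective hμ ⟨R.toHomUnits, hle⟩)
  have hρ : ∀ a, ρ (μ a) = R a := fun a => by
    exact congrArg Units.val (MonoidHom.liftOfRightInverse_comp_apply μ _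
      (Function.rightInverse_surjInv hμ) ⟨R.toHomUnits, hle⟩ a)
  let T : S →* Matrix (Q → ι) (Q → ι) ℂ :=
    { toFun := fun s => piMat (MulAction.toPerm s) fun q => T' (hh s q)
      map_one' := by
        have h1 : (MulAction.toPerm (1 : S) : Equiv.Perm Q) = 1 :=
          Equiv.ext fun q => by simp
        have h2 : ∀ q : Q, hh 1 q = 1 := fun q => Subtype.ext (by simp [hh])
        simp [h1, h2, piMat_one]
      map_mul' := fun a b => by
        have h1 : (MulAction.toPerm (a * b) : Equiv.Perm Q) =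
            MulAction.toPerm a * MulAction.toPerm b := Equiv.ext fun q => mul_smul a b q
        have h2 : ∀ q : Q, hh (a * b) q = hh a (b • q) * hh b q := fun q => Subtype.ext (by
          simp only [hh, Subgroup.coe_mul, mul_smul]
          group)
        simp [h1, h2, piMat_mul] }
  obtain ⟨q₀⟩ : Nonempty Q := inferInstance
  refine ⟨Q → ι, inferInstance, inferInstance, ρ, T, inferInstance, ?_, ?_, fun s e => ?_⟩
  · rw [← (hzs q₀).1, hρ, (hzs q₀).2]
  · let N : Subgroup (Q → A) := Subgroup.pi Set.univ fun _ => Subgroup.zpowers ⟨z, hzA⟩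
    have hN : Nat.card N ≤ 2 ^ Nat.card Q := by
      have ho : Nat.card (Subgroup.zpowers (⟨z, hzA⟩ : A)) ≤ 2 := by
        rw [Nat.card_zpowers]
        exact Nat.le_of_dvd two_pos (orderOf_dvd_of_pow_eq_one (Subtype.ext (by
          simp [pow_two, h.sq_z])))
      refine le_trans (Nat.card_le_card_of_injective
        (fun a : N => fun q => (⟨a.1 q, a.2 q (Set.mem_univ q)⟩ :
          Subgroup.zpowers (⟨z, hzA⟩ : A)))
        fun a b hab => Subtype.ext (funext fun q => congrArg Subtype.val (congrFun hab q))) ?_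
      rw [Nat.card_fun]
      exact Nat.pow_le_pow_left ho _
    have hlt : μ.ker < N := by
      refine lt_of_le_of_ne (fun a ha q _ => ?_) fun heq => ?_
      · rcases hkcen a ha q with h1 | h1
        · rw [h1]; exact Subgroup.one_mem _
        · rw [h1]; exact Subgroup.mem_zpowers _
      · have hm : zs q₀ ∈ μ.ker := by
          rw [heq]
          intro q _
          by_cases hq : q = q₀
          · subst hq; simp [zs]
          · simp [zs, hq]
        exact h.ne ((hzs q₀).1.symm.trans hm)
    have h2k : 2 * Nat.card μ.ker ≤ Nat.card N := by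
      obtain ⟨k, hk⟩ := Subgroup.card_dvd_of_le hlt.le
      have hk2 : 2 ≤ k := by
        rcases k with _ | _ | k
        · rw [mul_zero] at hk
          exact absurd hk Nat.card_pos.ne'
        · exact absurd (Subgroup.eq_of_le_of_card_ge hlt.le (by omega)) hlt.ne
        · omega
      rw [hk]
      nlinarith
    have hc := μ.ker.card_mul_index
    rw [Subgroup.index_ker, MonoidHom.range_eq_top.2 hμ, Subgroup.card_top, Nat.card_fun] at hc
    rw [Fintype.card_fun, ← Nat.card_eq_fintype_card (α := Q)]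
    set m := Nat.card Q
    have h3 : 2 ^ m * (Fintype.card ι ^ m) ^ 2 ≤ Nat.card A ^ m := by
      rw [← pow_mul, mul_comm m 2, pow_mul, ← mul_pow]
      exact Nat.pow_le_pow_left a3 m
    rw [← hc] at h3
    have h4 : 2 * Nat.card μ.ker * (Fintype.card ι ^ m) ^ 2 ≤ Nat.card μ.ker * Nat.card E :=
      (Nat.mul_le_mul_right _ (h2k.trans hN)).trans h3
    exact Nat.le_of_mul_le_mul_left (by linarith) (Nat.card_pos (α := μ.ker))
  · obtain ⟨a, rfl⟩ := hμ e
    let rA := resHom (φ.comp S₀.subtype) A hA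
    let a' : Q → A := fun r => rA (hh s (s⁻¹ • r)) (a (s⁻¹ • r))
    have hmove : φ s (μ a) = μ a' := by
      let tr : (Q → A) →* (Q → A) :=
        { toFun := fun b r => rA (hh s (s⁻¹ • r)) (b (s⁻¹ • r))
          map_one' := by funext r; simp
          map_mul' := fun b c => by funext r; simp }
      have : (φ s).toMonoidHom.comp μ = μ.comp tr := by
        refine MonoidHom.pi_ext fun q b => ?_
        have htr : tr (Pi.mulSingle q b) = Pi.mulSingle (s • q) (rA (hh s q) b) := by
          funext r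
          by_cases hr : r = s • q
          · subst hr; simp [tr]
          · have : s⁻¹ • r ≠ q := fun h' => hr (by rw [← h', smul_inv_smul])
            simp [tr, hr, this]
        simp only [MonoidHom.comp_apply, MulEquiv.coe_toMonoidHom, hμ1, htr]
        change φ s (φ _ (b : E)) = φ _ (φ ((hh s q : S₀) : S) (b : E))
        rw [← MulAut.mul_apply, ← map_mul, ← MulAut.mul_apply, ← map_mul]
        congr 2
        simp only [hh]
        group
      exact DFunLike.congr_fun this a
    rw [hmove, hρ, hρ]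
    change piMat _ _ * piMat _ _ = piMat _ _ * piMat _ _
    rw [piMat_mul, piMat_mul, mul_one, one_mul]
    congr 1
    funext q
    simp only [Equiv.Perm.one_apply, a', MulAction.toPerm_apply, inv_smul_smul]
    exact a4 _ _

end CfsgLib.ExtraSplit59
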