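import Cfsg.Agent.ExtraSplit59.Basic
import Cfsg.Agent.ExtraSplit59.Good

/-!
Fixed subgroups, centralisers and invariant abelian subgroups in a group with centre `{1, z}`.
-/

namespace CfsgLib.ExtraSplit59

open scoped commutatorElement

universe u

variable {E : Type u} [Group E] {z : E}

/-- A subgroup invariant under a group of automorphisms. -/
def Inv (X : Subgroup (MulAut E)) (A : Subgroup E) : Prop := ∀ x ∈ X, ∀ a ∈ A, x a ∈ A

/-- The subgroup fixed by a group of automorphisms. -/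
def fixG (X : Subgroup (MulAut E)) : Subgroup E where
  carrier := {e | ∀ x ∈ X, x e = e}
  one_mem' := fun x _ => map_one x
  mul_mem' := fun ha hb x hx => by rw [map_mul, ha x hx, hb x hx]
  inv_mem' := fun ha x hx => by rw [map_inv, ha x hx]

theorem inv_centralizer {X : Subgroup (MulAut E)} {A : Subgroup E} (hA : Inv X A) :
    Inv X (Subgroup.centralizer (A : Set E)) := by
  intro x hx c hc
  rw [Subgroup.mem_centralizer_iff] at hc ⊢
  intro a ha
  have h1 := hc _ (hA x⁻¹ (X.inv_mem hx) a ha)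
  have h2 := congrArg x h1
  simpa [map_mul, MulAut.apply_inv_self] using h2

theorem inv_inf {X : Subgroup (MulAut E)} {A B : Subgroup E} (hA : Inv X A) (hB : Inv X B) :
    Inv X (A ⊓ B) := fun x hx a ha => ⟨hA x hx a ha.1, hB x hx a ha.2⟩

theorem inv_fixG {X Y : Subgroup (MulAut E)} (h : ∀ y ∈ Y, ∀ x ∈ X, y⁻¹ * x * y ∈ X) :
    Inv Y (fixG X) := by
  intro y hy e he x hx
  have h1 := congrArg y (he _ (h y hy x hx))
  simpa [MulAut.mul_apply, MulAut.apply_inv_self] using h1

namespace Ex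

variable [Finite E] (h : Ex E z)
include h

theorem center_le_fixG (X : Subgroup (MulAut E)) : Subgroup.center E ≤ fixG X :=
  fun _ hc x _ => h.aut_center x hc

theorem fixed_of_mod {X : Subgroup (MulAut E)} [Finite X] (hodd : Odd (Nat.card X)) {x : MulAut E}
    (hx : x ∈ X) {e : E} (he : x e * e⁻¹ ∈ Subgroup.center E) : x e = e := by
  set c := x e * e⁻¹ with hc
  have hxe : x e = c * e := by rw [hc, inv_mul_cancel_right]
  have hpow : ∀ j : ℕ, (x ^ j) e = c ^ j * e := by
    intro j
    induction j with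
    | zero => simp
    | succ j ih =>
      rw [pow_succ', MulAut.mul_apply, ih, map_mul, map_pow, h.aut_center x he, hxe, ← mul_assoc,
        ← pow_succ]
  have h1 := hpow (Nat.card X)
  have h2 : x ^ Nat.card X = 1 :=
    congrArg Subtype.val (pow_card_eq_one' (x := (⟨x, hx⟩ : X)))
  rw [h2, MulAut.one_apply] at h1
  obtain ⟨k, hk⟩ := hodd
  have h3 : c ^ 2 = 1 := by
    rcases (h.mem_center c).1 he with h4 | h4
    · rw [h4, one_pow]
    · rw [h4, pow_two, h.sq_z]
  rw [hk, pow_succ, pow_mul, h3, one_pow, one_mul] at h1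
  rw [hxe, ← h1]

theorem mem_fixG_of_mod {X : Subgroup (MulAut E)} [Finite X] (hodd : Odd (Nat.card X)) {e : E}
    (he : ∀ x ∈ X, x e * e⁻¹ ∈ Subgroup.center E) : e ∈ fixG X := fun x hx =>
  h.fixed_of_mod hodd hx (he x hx)

/-- The centraliser index is at most the index of the central part. -/
theorem index_centralizer_mul_le (W : Subgroup E) :
    (Subgroup.centralizer (W : Set E)).index *
      Nat.card (W ⊓ Subgroup.center E : Subgroup E) ≤ Nat.card W := by
  induction hn : Nat.card W using Nat.strong_induction_on generalizing W with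
  | _ n ih =>
  subst hn
  by_cases hW : W ≤ Subgroup.center E
  · have : Subgroup.centralizer (W : Set E) = ⊤ := Subgroup.centralizer_eq_top_iff_subset.2 hW
    rw [this, Subgroup.index_top, one_mul, inf_eq_left.2 hW]
  obtain ⟨x, hxW, hx⟩ := SetLike.not_le_iff_exists.1 hW
  obtain ⟨g, hg⟩ := h.exists_conj hx
  set M := W ⊓ Subgroup.centralizer ({g} : Set E) with hM
  have hxM : x ∉ M := fun hm => h.ne (by
    have h1 : g * x = x * g := Subgroup.mem_centralizer_singleton_iff.1 hm.2 ▸ rfl
    rw [h1, mul_inv_cancel_right] at hg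
    exact mul_eq_right.1 hg.symm)
  have hlt : M < W := lt_of_le_of_ne inf_le_left fun h1 => hxM (h1 ▸ hxW)
  have hcard : 2 * Nat.card M ≤ Nat.card W := by
    obtain ⟨k, hk⟩ := Subgroup.card_dvd_of_le hlt.le
    rcases k with _ | _ | k
    · rw [mul_zero] at hk; exact absurd hk Nat.card_pos.ne'
    · exact absurd (Subgroup.eq_of_le_of_card_ge hlt.le (by omega)) hlt.ne
    · rw [hk]; nlinarith [Nat.card_pos (α := M)]
  have hMZ : M ⊓ Subgroup.center E = W ⊓ Subgroup.center E := by
    refine le_antisymm (inf_le_inf_right _ inf_le_left) fun a ha => ⟨⟨ha.1, ?_⟩, ha.2⟩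
    exact Subgroup.center_le_centralizer _ ha.2
  have hC : Subgroup.centralizer (M : Set E) ⊓ Subgroup.centralizer ({x} : Set E) ≤
      Subgroup.centralizer (W : Set E) := by
    rintro c ⟨hc1, hc2⟩
    rw [Subgroup.mem_centralizer_iff]
    intro w hw
    have hgw : g * w * g⁻¹ = ⁅g, w⁆ * w := by simp [commutatorElement_def]
    rcases (h.mem_center _).1 (h.comm_mem g w) with h1 | h1
    · exact hc1 w ⟨hw, Subgroup.mem_centralizer_singleton_iff.2
        ((commutatorElement_eq_one_iff_mul_comm.1 h1).symm)⟩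
    · rw [h1] at hgw
      have hm : w * x⁻¹ ∈ M := by
        refine ⟨W.mul_mem hw (W.inv_mem hxW), Subgroup.mem_centralizer_singleton_iff.2 ?_⟩
        have h2 : g * (w * x⁻¹) * g⁻¹ = w * x⁻¹ := by
          have h3 : g * (w * x⁻¹) * g⁻¹ = (g * w * g⁻¹) * (g * x * g⁻¹)⁻¹ := by group
          rw [h3, hgw, hg, mul_inv_rev, h.z_inv, ← mul_assoc, mul_assoc z w, ← h.z_comm,
            ← mul_assoc, h.sq_z, one_mul]
        exact (mul_inv_eq_iff_eq_mul.1 h2).symm
      have h4 := hc1 _ hm
      have h5 : c * x = x * c := Subgroup.mem_centralizer_singleton_iff.1 hc2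
      calc w * c = w * x⁻¹ * (x * c) := by group
        _ = w * x⁻¹ * c * x := by rw [← h5]; group
        _ = c * w := by rw [h4]; group
  have hidx : (Subgroup.centralizer ({x} : Set E)).index ≤ 2 := by
    let f : E →* Subgroup.center E :=
      { toFun := fun e => ⟨⁅e, x⁆, h.comm_mem e x⟩
        map_one' := Subtype.ext (commutatorElement_one_left x)
        map_mul' := fun a b => Subtype.ext (by
          have h1 : ⁅a * b, x⁆ = a * ⁅b, x⁆ * a⁻¹ * ⁅a, x⁆ := by
            simp [commutatorElement_def, mul_assoc]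
          rw [Subgroup.coe_mul]
          change ⁅a * b, x⁆ = ⁅a, x⁆ * ⁅b, x⁆
          rw [h1, Subgroup.mem_center_iff.1 (h.comm_mem b x) a, mul_inv_cancel_right,
            Subgroup.mem_center_iff.1 (h.comm_mem b x) ⁅a, x⁆]) }
    have hk : f.ker ≤ Subgroup.centralizer ({x} : Set E) := fun e he =>
      Subgroup.mem_centralizer_singleton_iff.2 (commutatorElement_eq_one_iff_mul_comm.1
        (congrArg Subtype.val he))
    refine le_trans (Nat.le_of_dvd ?_ (Subgroup.index_dvd_of_le hk)) ?_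
    · exact Nat.pos_of_ne_zero Subgroup.index_ne_zero_of_finite
    · rw [Subgroup.index_ker, ← h.card_center]
      exact Nat.card_le_card_of_injective _ Subtype.val_injective
  have hle := (Nat.le_of_dvd (Nat.pos_of_ne_zero Subgroup.index_ne_zero_of_finite)
    (Subgroup.index_dvd_of_le hC)).trans Subgroup.index_inf_le
  have h1 := ih _ (by have := Nat.card_pos (α := M); omega) M rfl
  rw [hMZ] at h1
  nlinarith

/-- The complement of the centre in an invariant abelian subgroup. -/
theorem abelian_split {K S : Subgroup (MulAut E)} (hK : Odd (Nat.card K))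
    (hnorm : ∀ s ∈ S, ∀ k ∈ K, s⁻¹ * k * s ∈ K) (hfix : fixG K ≤ Subgroup.center E)
    (R : Subgroup E) (hR : Subgroup.center E ≤ R) (hRK : Inv K R) (hRS : Inv S R)
    (hcomm : ∀ a ∈ R, ∀ b ∈ R, a * b = b * a) :
    ∃ W : Subgroup E, W ≤ R ∧ z ∉ W ∧ Inv K W ∧ Inv S W ∧ (∀ w ∈ W, w * w = 1) ∧
      (∀ r ∈ R, ∃ c ∈ Subgroup.center E, r * c ∈ W) ∧
      ∀ V : Subgroup E, V ≤ R → z ∉ V → Inv K V → V ≤ W := by
  classical
  haveI : Finite (MulAut E) := Finite.of_injective _ DFunLike.coe_injective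
  haveI := Fintype.ofFinite K
  letI : CommGroup R :=
    { (inferInstance : Group R) with mul_comm := fun a b => Subtype.ext (hcomm a a.2 b b.2) }
  let N : R →* R :=
    { toFun := fun r => ∏ k : K, (⟨(k : MulAut E) r, hRK _ k.2 _ r.2⟩ : R)
      map_one' := Finset.prod_eq_one fun k _ => Subtype.ext (map_one (k : MulAut E))
      map_mul' := fun a b => by
        rw [← Finset.prod_mul_distrib]
        exact Finset.prod_congr rfl fun k _ => Subtype.ext (map_mul (k : MulAut E) _ _) }
  have hNc : ∀ r : R, (r : E) ∈ Subgroup.center E → N r = r := by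
    intro r hr
    have hr2 : r * r = 1 := by
      apply Subtype.ext
      rcases (h.mem_center (r : E)).1 hr with h1 | h1 <;> simp [h1, h.sq_z]
    change ∏ k : K, (⟨(k : MulAut E) r, _⟩ : R) = r
    rw [Finset.prod_congr rfl fun (k : K) _ => show (⟨(k : MulAut E) r, hRK _ k.2 _ r.2⟩ : R) = r from
      Subtype.ext (h.aut_center _ hr), Finset.prod_const, Finset.card_univ,
      ← Nat.card_eq_fintype_card]
    obtain ⟨j, hj⟩ := hK
    rw [hj, pow_succ, pow_mul, pow_two, hr2, one_pow, one_mul]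
  have hNfix : ∀ r : R, ((N r : R) : E) ∈ Subgroup.center E := by
    intro r
    refine hfix fun y hy => ?_
    let Y : R →* R :=
      { toFun := fun a => ⟨y a, hRK y hy _ a.2⟩
        map_one' := Subtype.ext (map_one y)
        map_mul' := fun a b => Subtype.ext (map_mul y _ _) }
    have h1 : Y (N r) = N r := by
      change Y (∏ k : K, _) = ∏ k : K, _
      rw [map_prod]
      exact Fintype.prod_equiv (Equiv.mulLeft (⟨y, hy⟩ : K)) _ _ fun k => rfl
    exact congrArg Subtype.val h1
  refine ⟨N.ker.map R.subtype, Subgroup.map_subtype_le _, ?_, ?_, ?_, ?_, ?_, ?_⟩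
  · rintro ⟨w, hw, hwz⟩
    have h1 := hNc w (by rw [show (w : E) = z from hwz]; exact h.z_mem)
    rw [MonoidHom.mem_ker.1 hw] at h1
    exact h.ne (by rw [← hwz, ← h1]; rfl)
  · rintro y hy _ ⟨w, hw, rfl⟩
    refine ⟨⟨y w, hRK y hy _ w.2⟩, ?_, rfl⟩
    have h1 : N ⟨y w, hRK y hy _ w.2⟩ = N w :=
      Fintype.prod_equiv (Equiv.mulRight (⟨y, hy⟩ : K)) _ _ fun k => rfl
    rw [SetLike.mem_coe, MonoidHom.mem_ker, h1, MonoidHom.mem_ker.1 hw]
  · rintro y hy _ ⟨w, hw, rfl⟩
    refine ⟨⟨y w, hRS y hy _ w.2⟩, ?_, rfl⟩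
    let Y : R →* R :=
      { toFun := fun a => ⟨y a, hRS y hy _ a.2⟩
        map_one' := Subtype.ext (map_one y)
        map_mul' := fun a b => Subtype.ext (map_mul y _ _) }
    have h1 : N ⟨y w, hRS y hy _ w.2⟩ = Y (N w) := by
      change ∏ k : K, _ = Y (∏ k : K, _)
      rw [map_prod]
      let cj : K → K := fun k => ⟨y⁻¹ * k * y, hnorm y hy k k.2⟩
      have hinj : Function.Injective cj := fun a b hab => Subtype.ext (by
        have := congrArg Subtype.val hab
        simpa [cj] using this)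
      refine Fintype.prod_bijective cj ⟨hinj, Finite.surjective_of_injective hinj⟩ _ _ fun k =>
        Subtype.ext ?_
      change (k : MulAut E) (y w) = y ((y⁻¹ * (k : MulAut E) * y) w)
      simp [MulAut.mul_apply, MulAut.apply_inv_self]
    rw [SetLike.mem_coe, MonoidHom.mem_ker, h1, MonoidHom.mem_ker.1 hw, map_one]
  · rintro _ ⟨w, hw, rfl⟩
    have h1 := hNc (w * w) (h.sq_mem w)
    rw [map_mul, MonoidHom.mem_ker.1 hw, one_mul] at h1
    exact congrArg Subtype.val h1.symm
  · intro r hr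
    refine ⟨_, hNfix ⟨r, hr⟩, ⟨⟨r, hr⟩ * N ⟨r, hr⟩, ?_, rfl⟩⟩
    rw [SetLike.mem_coe, MonoidHom.mem_ker, map_mul, hNc _ (hNfix _)]
    apply Subtype.ext
    rcases (h.mem_center _).1 (hNfix ⟨r, hr⟩) with h1 | h1 <;> simp [h1, h.sq_z]
  · intro V hVR hzV hVK v hv
    refine ⟨⟨v, hVR hv⟩, ?_, rfl⟩
    rw [SetLike.mem_coe, MonoidHom.mem_ker]
    have h1 : N ⟨v, hVR hv⟩ ∈ V.subgroupOf R :=
      Subgroup.prod_mem _ fun k _ => hVK _ k.2 _ hv
    rcases (h.mem_center _).1 (hNfix ⟨v, hVR hv⟩) with h2 | h2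
    · exact Subtype.ext h2
    · exact absurd (h2 ▸ h1 : z ∈ V) hzV

end Ex

end CfsgLib.ExtraSplit59
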