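import Cfsg.Agent.ExtraSplit59.Cyclic
import Cfsg.Agent.ExtraSplit59.Tools
import Mathlib.GroupTheory.Perm.Cycle.Type
import Mathlib.GroupTheory.Solvable
import Mathlib.GroupTheory.SpecificGroups.Cyclic

/-!
The faithful representation is intertwined linearly by a `2`-group normalising an odd group of
automorphisms that fixes only the centre.
-/

namespace CfsgLib.ExtraSplit59

open scoped commutatorElement

universe u

/-- Automorphisms of a quotient by an invariant normal subgroup. -/
noncomputable def quotHom {E : Type u} [Group E] {S : Type u} [Group S] (φ : S →* MulAut E)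
    (W : Subgroup E) [W.Normal] (hW : ∀ s : S, ∀ w ∈ W, φ s w ∈ W) : S →* MulAut (E ⧸ W) where
  toFun s := QuotientGroup.congr W W (φ s) (le_antisymm
    (by rintro _ ⟨w, hw, rfl⟩; exact hW s w hw)
    (fun w hw => ⟨φ s⁻¹ w, hW s⁻¹ w hw, by simp [map_inv]⟩))
  map_one' := by
    refine MulEquiv.ext fun q => ?_
    induction q using QuotientGroup.induction_on with
    | H x => simp
  map_mul' s t := by
    refine MulEquiv.ext fun q => ?_
    induction q using QuotientGroup.induction_on with
    | H x => simp [MulAut.mul_apply]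

theorem quotHom_mk {E : Type u} [Group E] {S : Type u} [Group S] (φ : S →* MulAut E)
    (W : Subgroup E) [W.Normal] (hW : ∀ s : S, ∀ w ∈ W, φ s w ∈ W) (s : S) (x : E) :
    quotHom φ W hW s (x : E ⧸ W) = ((φ s x : E) : E ⧸ W) := by
  simp [quotHom]

/-- The hypothesis on the pair `(K, S)`. -/
structure Acts {E : Type u} [Group E] (K S : Subgroup (MulAut E)) : Prop where
  two : IsPGroup 2 S
  odd : Odd (Nat.card K)
  norm : ∀ s ∈ S, ∀ k ∈ K, s⁻¹ * k * s ∈ K
  fix : fixG K ≤ Subgroup.center E

theorem Acts.norm' {E : Type u} [Group E] {K S : Subgroup (MulAut E)} (a : Acts K S)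
    {s : MulAut E} (hs : s ∈ S) {k : MulAut E} (hk : k ∈ K) : s * k * s⁻¹ ∈ K := by
  simpa using a.norm s⁻¹ (S.inv_mem hs) k hk

/-- Passing to the images in the automorphisms of a smaller group. -/
theorem reduce {E : Type u} [Group E] {F : Type u} [Group F] {zF : F}
    (ih : ∀ K S : Subgroup (MulAut F), Acts K S → Good zF S.subtype)
    {K S₀ : Subgroup (MulAut E)} (hS : IsPGroup 2 S₀) (hK : Odd (Nat.card K))
    (hnorm : ∀ s ∈ S₀, ∀ k ∈ K, s⁻¹ * k * s ∈ K)
    (fK : K →* MulAut F) (fS : S₀ →* MulAut F)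
    (hcompat : ∀ (s : S₀) (k : K) (hk : ((s : MulAut E))⁻¹ * k * s ∈ K) (x : F),
      fS s (fK ⟨_, hk⟩ x) = fK k (fS s x))
    (hfix : ∀ f : F, (∀ k, fK k f = f) → f ∈ Subgroup.center F) : Good zF fS := by
  have hacts : Acts fK.range fS.range := by
    refine ⟨hS.of_surjective fS.rangeRestrict fS.rangeRestrict_surjective, ?_, ?_,
      fun f hf => hfix f fun k => hf _ ⟨k, rfl⟩⟩
    · exact hK.of_dvd_nat (Subgroup.card_range_dvd fK)
    · rintro _ ⟨s, rfl⟩ _ ⟨k, rfl⟩
      refine ⟨⟨_, hnorm _ s.2 _ k.2⟩, MulEquiv.ext fun x => (fS s).injective ?_⟩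
      rw [hcompat s k _ x]
      simp [MulAut.mul_apply, MulAut.apply_inv_self]
  exact (ih _ _ hacts).comp fS.rangeRestrict

set_option maxHeartbeats 1000000 in
/-- The main induction. -/
theorem main (hFT : ∀ (G : Type u) [Group G] [Finite G], Odd (Nat.card G) → Group.IsSolvable G)
    {E : Type u} [Group E] [Finite E] {z : E} (h : Ex E z) (K S : Subgroup (MulAut E))
    (hact : Acts K S) : Good z S.subtype := by
  classical
  induction hn : Nat.card E using Nat.strong_induction_on generalizing E with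
  | _ n ih =>
  subst hn
  induction hm : Nat.card K using Nat.strong_induction_on generalizing K with
  | _ m ihK =>
  subst hm
  haveI : Finite (MulAut E) := Finite.of_injective _ DFunLike.coe_injective
  -- case 1: an invariant singular subgroup
  by_cases hW : ∃ W : Subgroup E, W ≠ ⊥ ∧ z ∉ W ∧ Inv K W ∧ Inv S W ∧
      (∀ w ∈ W, w * w = 1) ∧ ∀ a ∈ W, ∀ b ∈ W, a * b = b * a
  · obtain ⟨W, ⟨hW1, hzW, hWK, hWS, hW2, hWc⟩, hmax⟩ :=
      (Set.toFinite {W : Subgroup E | W ≠ ⊥ ∧ z ∉ W ∧ Inv K W ∧ Inv S W ∧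
        (∀ w ∈ W, w * w = 1) ∧ ∀ a ∈ W, ∀ b ∈ W, a * b = b * a}).exists_maximal hW
    set C := Subgroup.centralizer (W : Set E) with hC
    have hWC : W ≤ C := fun a ha => Subgroup.mem_centralizer_iff.2 fun b hb => hWc b hb a ha
    have hZC : Subgroup.center E ≤ C := Subgroup.center_le_centralizer _
    have hCK : Inv K C := inv_centralizer hWK
    have hCS : Inv S C := inv_centralizer hWS
    haveI hWn : (W.subgroupOf C).Normal := by
      refine ⟨fun w hw c => ?_⟩
      rw [Subgroup.mem_subgroupOf] at hw ⊢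
      rw [Subgroup.coe_mul, Subgroup.coe_mul, Subgroup.coe_inv,
        ← (Subgroup.mem_centralizer_iff.1 c.2 _ hw), mul_inv_cancel_right]
      exact hw
    set R := C ⊓ Subgroup.centralizer (C : Set E) with hR
    have hZR : Subgroup.center E ≤ R := le_inf hZC (Subgroup.center_le_centralizer _)
    obtain ⟨W', hW'R, hzW', hW'K, hW'S, hW'2, hsplit, huniv⟩ :=
      h.abelian_split hact.odd hact.norm hact.fix R hZR (inv_inf hCK (inv_centralizer hCK))
        (inv_inf hCS (inv_centralizer hCS))
        (fun a ha b hb => Subgroup.mem_centralizer_iff.1 hb.2 a ha.1)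
    have hWR : W ≤ R := le_inf hWC fun w hw =>
      Subgroup.mem_centralizer_iff.2 fun c hc => (Subgroup.mem_centralizer_iff.1 hc w hw).symm
    have hWW' : W ≤ W' := huniv W hWR hzW hWK
    have hW'W : W' ≤ W := hmax ⟨ne_bot_of_le_ne_bot hW1 hWW', hzW', hW'K, hW'S, hW'2,
      fun a ha b hb => Subgroup.mem_centralizer_iff.1 (hW'R hb).2 a (hW'R ha).1⟩ hWW'
    set π := QuotientGroup.mk' (W.subgroupOf C) with hπ
    let z' : C ⧸ W.subgroupOf C := π ⟨z, hZC h.z_mem⟩
    have hcen : ∀ x : C, π x ∈ Subgroup.center (C ⧸ W.subgroupOf C) → (x : E) ∈ R := by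
      intro x hx
      refine ⟨x.2, Subgroup.mem_centralizer_iff.2 fun c hc => ?_⟩
      have h1 := Subgroup.mem_center_iff.1 hx (π ⟨c, hc⟩)
      rw [← map_mul, ← map_mul, eq_comm, hπ, QuotientGroup.mk'_apply, QuotientGroup.mk'_apply,
        QuotientGroup.eq, Subgroup.mem_subgroupOf] at h1
      simp only [Subgroup.coe_mul, Subgroup.coe_inv] at h1
      have h2 : ((x : E) * c)⁻¹ * (c * x) ∈ Subgroup.center E := by
        have : ((x : E) * c)⁻¹ * (c * x) = ⁅c⁻¹, (x : E)⁻¹⁆ := by
          simp [commutatorElement_def, mul_assoc]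
        rw [this]; exact h.comm_mem _ _
      rcases (h.mem_center _).1 h2 with h3 | h3
      · exact (inv_mul_eq_one.1 h3).symm
      · exact absurd (h3 ▸ h1) hzW
    have hRmod : ∀ x : C, (x : E) ∈ R → π x = 1 ∨ π x = z' := by
      intro x hx
      obtain ⟨c, hc, hrc⟩ := hsplit x hx
      have h1 : π (x * ⟨c, hZC hc⟩) = 1 := by
        rw [hπ, QuotientGroup.mk'_apply, QuotientGroup.eq_one_iff, Subgroup.mem_subgroupOf]
        exact hW'W hrc
      rcases (h.mem_center c).1 hc with rfl | rfl
      · left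
        rwa [show (⟨(1 : E), hZC hc⟩ : C) = 1 from rfl, mul_one] at h1
      · right
        rw [map_mul] at h1
        rw [eq_inv_of_mul_eq_one_left h1, ← map_inv]
        exact congrArg π (Subtype.ext h.z_inv)
    have hF : Ex (C ⧸ W.subgroupOf C) z' := by
      refine ⟨fun h1 => hzW ?_, ?_, fun q => ?_, fun q => ?_⟩
      · exact Subgroup.mem_subgroupOf.1 ((QuotientGroup.eq_one_iff _).1 h1)
      · rw [← map_mul, ← map_one π]
        exact congrArg π (Subtype.ext h.sq_z)
      · obtain ⟨x, rfl⟩ := QuotientGroup.mk'_surjective _ q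
        refine ⟨fun hx => hRmod x (hcen x hx), ?_⟩
        rintro (h1 | h1) <;> rw [h1]
        · exact Subgroup.one_mem _
        · refine Subgroup.mem_center_iff.2 fun g => ?_
          obtain ⟨y, rfl⟩ := QuotientGroup.mk'_surjective _ g
          rw [← map_mul, ← map_mul]
          exact congrArg π (Subtype.ext (h.z_comm _).symm)
      · obtain ⟨x, rfl⟩ := QuotientGroup.mk'_surjective _ q
        refine Subgroup.mem_center_iff.2 fun g => ?_
        obtain ⟨y, rfl⟩ := QuotientGroup.mk'_surjective _ g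
        rw [← map_mul π, ← map_mul π, ← map_mul π]
        exact congrArg π (Subtype.ext (Subgroup.mem_center_iff.1 (h.sq_mem x) y))
    have hcardW : Nat.card (C ⧸ W.subgroupOf C) * Nat.card W = Nat.card C := by
      have := (W.subgroupOf C).card_eq_card_quotient_mul_card_subgroup
      rwa [Nat.card_congr (Subgroup.subgroupOfEquivOfLe hWC).toEquiv, eq_comm] at this
    have hlt : Nat.card (C ⧸ W.subgroupOf C) < Nat.card E := by
      have h1 : 1 < Nat.card W := (Subgroup.one_lt_card_iff_ne_bot W).2 hW1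
      have h2 : Nat.card C ≤ Nat.card E := Subgroup.card_le_card_group _
      nlinarith [Nat.card_pos (α := C ⧸ W.subgroupOf C)]
    let rK : K →* MulAut C := resHom K.subtype C fun k c hc => hCK k k.2 c hc
    let rS : S →* MulAut C := resHom S.subtype C fun s c hc => hCS s s.2 c hc
    let qK : K →* MulAut (C ⧸ W.subgroupOf C) :=
      quotHom rK (W.subgroupOf C) fun k w hw => hWK k k.2 _ hw
    let qS : S →* MulAut (C ⧸ W.subgroupOf C) :=
      quotHom rS (W.subgroupOf C) fun s w hw => hWS s s.2 _ hw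
    have g : Good z' qS := by
      refine reduce (fun K' S' a' => ih _ hlt hF K' S' a' rfl) hact.two hact.odd hact.norm qK qS
        (fun s k hk q => ?_) fun f hf => ?_
      · induction q using QuotientGroup.induction_on with
        | H x =>
          change ((rS s (rK ⟨_, hk⟩ x) : C) : C ⧸ W.subgroupOf C) =
            ((rK k (rS s x) : C) : C ⧸ W.subgroupOf C)
          congr 1
          apply Subtype.ext
          change (s : MulAut E) (((s : MulAut E)⁻¹ * k * s) (x : E)) =
            (k : MulAut E) ((s : MulAut E) (x : E))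
          simp [MulAut.mul_apply, MulAut.apply_inv_self]
      · obtain ⟨x, rfl⟩ := QuotientGroup.mk'_surjective _ f
        have hxR : (x : E) ∈ R := by
          refine h.norm_trick K hact.odd C R hZR hCK (fun e _ he => hZR (hact.fix
            (h.mem_fixG_of_mod hact.odd he))) x.2 fun k hk => ?_
          have h1 : π (rK ⟨k, hk⟩ x) = π x := (quotHom_mk rK _ _ ⟨k, hk⟩ x).symm.trans (hf ⟨k, hk⟩)
          have h2 : π (rK ⟨k, hk⟩ x * x⁻¹) = 1 := by rw [map_mul, h1, map_inv, mul_inv_cancel]
          rw [hπ, QuotientGroup.mk'_apply, QuotientGroup.eq_one_iff,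
            Subgroup.mem_subgroupOf] at h2
          exact hWR h2
        rcases hRmod x hxR with h1 | h1
        · rw [h1]; exact Subgroup.one_mem _
        · rw [h1]; exact hF.z_mem
    refine good_descend S.subtype C (fun s c hc => hCS s s.2 c hc) (hZC h.z_mem) h.z_comm
      (fun s => h.aut_z _) π (QuotientGroup.mk'_surjective _) qS (fun s c => ?_) ?_ g
    · exact (quotHom_mk rS _ _ s c).symm
    · have h1 := h.index_centralizer_mul_le W
      calc C.index * Nat.card (C ⧸ W.subgroupOf C)
          ≤ Nat.card W * Nat.card (C ⧸ W.subgroupOf C) := by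
            gcongr
            exact (Nat.le_mul_of_pos_right _ Nat.card_pos).trans h1
        _ = Nat.card C := by rw [mul_comm, hcardW]
  push Not at hW
  -- case 2: an invariant nondegenerate subgroup
  by_cases hA : ∃ A : Subgroup E, Inv K A ∧ Inv S A ∧ Subgroup.center E < A ∧ A < ⊤
  · obtain ⟨A, hAK, hAS, hZA, hAtop⟩ := hA
    set B := Subgroup.centralizer (A : Set E) with hB
    have hZB : Subgroup.center E ≤ B := Subgroup.center_le_centralizer _
    have hBK : Inv K B := inv_centralizer hAK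
    have hBS : Inv S B := inv_centralizer hAS
    have hint : A ⊓ B ≤ Subgroup.center E := by
      intro a ha
      obtain ⟨W, hWR, hzW, hWK, hWS, hW2, hsplit, -⟩ :=
        h.abelian_split hact.odd hact.norm hact.fix (A ⊓ B) (le_inf hZA.le hZB)
          (inv_inf hAK hBK) (inv_inf hAS hBS)
          (fun a ha b hb => Subgroup.mem_centralizer_iff.1 hb.2 a ha.1)
      obtain ⟨c, hc, hac⟩ := hsplit a ha
      have hW0 : W = ⊥ := by
        by_contra hne
        obtain ⟨p, hp, q, hq, hpq⟩ := hW W hne hzW hWK hWS hW2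
        exact hpq (Subgroup.mem_centralizer_iff.1 (hWR hq).2 p (hWR hp).1)
      rw [hW0, Subgroup.mem_bot] at hac
      rw [eq_inv_of_mul_eq_one_left hac]
      exact Subgroup.inv_mem _ hc
    have hAB : ∀ e : E, ∃ a ∈ A, ∃ b ∈ B, a * b = e := by
      have hcm : ∀ (a : A) (b : B), Commute (A.subtype a) (B.subtype b) := fun a b =>
        Subgroup.mem_centralizer_iff.1 b.2 a a.2
      let μ := A.subtype.noncommCoprod B.subtype hcm
      suffices hs : μ.range = ⊤ by
        intro e
        obtain ⟨⟨a, b⟩, hab⟩ : e ∈ μ.range := hs ▸ Subgroup.mem_top e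
        exact ⟨a, a.2, b, b.2, hab⟩
      have hker : Nat.card μ.ker ≤ Nat.card (A ⊓ B : Subgroup E) := by
        refine Nat.card_le_card_of_injective (fun p : μ.ker => ⟨((p.1.1 : A) : E),
          p.1.1.2, ?_⟩) fun p q hpq => ?_
        · have h1 : ((p.1.1 : A) : E) * ((p.1.2 : B) : E) = 1 := p.2
          rw [eq_inv_of_mul_eq_one_left h1]
          exact B.inv_mem p.1.2.2
        · have h1 : ((p.1.1 : A) : E) * ((p.1.2 : B) : E) = 1 := p.2
          have h2 : ((q.1.1 : A) : E) * ((q.1.2 : B) : E) = 1 := q.2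
          have h3 : ((p.1.1 : A) : E) = ((q.1.1 : A) : E) := congrArg (fun x : (A ⊓ B : Subgroup E) => (x : E)) hpq
          refine Subtype.ext (Prod.ext (Subtype.ext h3) (Subtype.ext ?_))
          rw [h3] at h1
          exact mul_left_cancel (h1.trans h2.symm)
      have hint' : A ⊓ B = A ⊓ Subgroup.center E :=
        le_antisymm (le_inf inf_le_left hint) (inf_le_inf_left _ hZB)
      have hidx := h.index_centralizer_mul_le A
      rw [← hint'] at hidx
      have hc := μ.ker.card_mul_index
      rw [Subgroup.index_ker, Nat.card_prod] at hc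
      refine Subgroup.eq_top_of_le_card _ ?_
      have h0 : 0 < Nat.card (A ⊓ B : Subgroup E) := Nat.card_pos
      have h1 : Nat.card B * B.index = Nat.card E := B.card_mul_index
      have h2 : Nat.card μ.ker * Nat.card μ.range ≤
          Nat.card (A ⊓ B : Subgroup E) * Nat.card μ.range := Nat.mul_le_mul_right _ hker
      have h3 : Nat.card E * Nat.card (A ⊓ B : Subgroup E) ≤ Nat.card B * Nat.card A := by
        rw [← h1, mul_assoc]
        exact Nat.mul_le_mul_left _ hidx
      exact Nat.le_of_mul_le_mul_left (by linarith [Nat.mul_comm (Nat.card B) (Nat.card A)]) h0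
    have hBA : B < ⊤ := by
      refine lt_top_iff_ne_top.2 fun h1 => hZA.not_ge fun a ha => hint ⟨ha, h1 ▸ Subgroup.mem_top a⟩
    have cen : ∀ (X Y : Subgroup E), (∀ a ∈ X, ∀ b ∈ Y, a * b = b * a) →
        (∀ e : E, ∃ a ∈ X, ∃ b ∈ Y, a * b = e) → ∀ hz : z ∈ X, Ex X ⟨z, hz⟩ := by
      intro X Y hc hs hz
      refine ⟨fun h1 => h.ne (congrArg Subtype.val h1), Subtype.ext h.sq_z, fun x => ?_,
        fun x => Subgroup.mem_center_iff.2 fun g => Subtype.ext
          (Subgroup.mem_center_iff.1 (h.sq_mem x) g)⟩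
      refine ⟨fun hx => ?_, ?_⟩
      · have : (x : E) ∈ Subgroup.center E := by
          refine Subgroup.mem_center_iff.2 fun e => ?_
          obtain ⟨a, ha, b, hb, rfl⟩ := hs e
          have h1 : a * x = x * a :=
            congrArg Subtype.val (Subgroup.mem_center_iff.1 hx ⟨a, ha⟩)
          rw [mul_assoc, ← hc x x.2 b hb, ← mul_assoc, h1, mul_assoc]
        rcases (h.mem_center _).1 this with h1 | h1
        · exact Or.inl (Subtype.ext h1)
        · exact Or.inr (Subtype.ext h1)
      · rintro (rfl | rfl)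
        · exact Subgroup.one_mem _
        · exact Subgroup.mem_center_iff.2 fun g => Subtype.ext (h.z_comm _).symm
    have step : ∀ (X : Subgroup E) (hX : X < ⊤) (hz : z ∈ X), Ex X ⟨z, hz⟩ →
       
        ∀ (hXK : Inv K X) (hXS : Inv S X),
        Good (⟨z, hz⟩ : X) (resHom S.subtype X fun s a ha => hXS s s.2 a ha) := by
      intro X hX hz hEx hXK hXS
      have hlt : Nat.card X < Nat.card E := by
        refine lt_of_le_of_ne (Subgroup.card_le_card_group _) fun h1 => hX.ne ?_
        exact Subgroup.eq_top_of_card_eq _ h1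
      refine reduce (fun K' S' a' => ih _ hlt hEx K' S' a' rfl) hact.two hact.odd hact.norm
        (resHom K.subtype X fun k a ha => hXK k k.2 a ha) _ (fun s k hk x => ?_) fun f hf => ?_
      · apply Subtype.ext
        change (s : MulAut E) (((s : MulAut E)⁻¹ * k * s) (x : E)) =
          (k : MulAut E) ((s : MulAut E) (x : E))
        simp [MulAut.mul_apply, MulAut.apply_inv_self]
      · have h1 : (f : E) ∈ Subgroup.center E :=
          hact.fix fun k hk => congrArg Subtype.val (hf ⟨k, hk⟩)
        exact Subgroup.mem_center_iff.2 fun g => Subtype.ext (Subgroup.mem_center_iff.1 h1 g)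
    have hcAB : ∀ a ∈ A, ∀ b ∈ B, a * b = b * a := fun a ha b hb =>
      Subgroup.mem_centralizer_iff.1 hb a ha
    refine good_tensor h S.subtype A B (fun s a ha => hAS s s.2 a ha) (fun s a ha => hBS s s.2 a ha)
      (hZA.le h.z_mem) (hZB h.z_mem) hcAB hint hAB
      (step A hAtop _ (cen A B hcAB hAB _) hAK hAS)
      (step B hBA _ (cen B A (fun b hb a ha => (hcAB a ha b hb).symm) (fun e => ?_) _)
        hBK hBS)
    obtain ⟨a, ha, b, hb, rfl⟩ := hAB e
    exact ⟨b, hb, a, ha, (hcAB a ha b hb).symm⟩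
  push Not at hA
  -- case 3: irreducible
  have irr : ∀ A : Subgroup E, Inv K A → Inv S A → Subgroup.center E ≤ A →
      ¬ A ≤ Subgroup.center E → A = ⊤ := fun A h1 h2 h3 h4 =>
    not_lt_top_iff.1 (hA A h1 h2 (lt_of_le_not_ge h3 h4))
  by_cases hE : ∀ e : E, e ∈ Subgroup.center E
  · refine good_cyclic h S.subtype ?_
    haveI : Subsingleton (MulAut E) := ⟨fun a b => MulEquiv.ext fun e => by
      rw [h.aut_center a (hE e), h.aut_center b (hE e)]⟩
    infer_instance
  push Not at hE
  obtain ⟨e₀, he₀⟩ := hE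
  -- commuting with `K` is trivial on `S`
  have hS1 : ∀ s ∈ S, (∀ k ∈ K, s * k = k * s) → s = 1 := by
    set S' := S ⊓ Subgroup.centralizer (K : Set (MulAut E)) with hS'
    haveI := h.normal_of_center_le _ (le_refl (Subgroup.center E))
    have hmem : ∀ {s}, s ∈ S' → ∀ k ∈ K, k * s = s * k := fun hs k hk =>
      Subgroup.mem_centralizer_iff.1 hs.2 k hk
    have hT : ∀ {t}, t ∈ S → ∀ {s}, s ∈ S' → t⁻¹ * s * t ∈ S' := fun {t} ht {s} hs =>
      ⟨S.mul_mem (S.mul_mem (S.inv_mem ht) hs.1) ht, Subgroup.mem_centralizer_iff.2 fun k hk => by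
        have h1 := hmem hs _ (hact.norm' ht hk)
        calc k * (t⁻¹ * s * t) = t⁻¹ * ((t * k * t⁻¹) * s) * t := by group
          _ = t⁻¹ * s * t * k := by rw [h1]; group⟩
    let A : Subgroup E :=
      { carrier := {e | ∀ s ∈ S', (QuotientGroup.mk' (Subgroup.center E)) (s e) =
          (QuotientGroup.mk' (Subgroup.center E)) e}
        one_mem' := fun s _ => by simp
        mul_mem' := fun ha hb s hs => by simp only [map_mul, ha s hs, hb s hs]
        inv_mem' := fun ha s hs => by simp only [map_inv, ha s hs] }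
    have hAK : Inv K A := fun k hk e he s hs => by
      rw [← MulAut.mul_apply, ← hmem hs k hk, MulAut.mul_apply]
      exact congrArg (Ex.qmap k) (he s hs)
    have hAS : Inv S A := fun t ht e he s hs => by
      have h1 := congrArg (Ex.qmap t) (he _ (hT ht hs))
      change QuotientGroup.mk' _ (t ((t⁻¹ * s * t) e)) = QuotientGroup.mk' _ (t e) at h1
      simpa [MulAut.mul_apply, MulAut.apply_inv_self] using h1
    have hZ : Subgroup.center E ≤ A := fun c hc s _ => by rw [h.aut_center s hc]
    have hne : ¬ A ≤ Subgroup.center E := by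
      intro hle
      letI : MulAction S' (E ⧸ Subgroup.center E) :=
        { smul := fun s q => Ex.qmap (s : MulAut E) q
          one_smul := fun q => by
            induction q using QuotientGroup.induction_on with
            | H x => rfl
          mul_smul := fun s t q => by
            induction q using QuotientGroup.induction_on with
            | H x => rfl }
      have hp : IsPGroup 2 S' := hact.two.to_le inf_le_left
      haveI : Nontrivial (E ⧸ Subgroup.center E) :=
        ⟨⟨(e₀ : E ⧸ Subgroup.center E), 1, fun h1 => he₀ ((QuotientGroup.eq_one_iff _).1 h1)⟩⟩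
      have h2 : 2 ∣ Nat.card (E ⧸ Subgroup.center E) := by
        have : orderOf (e₀ : E ⧸ Subgroup.center E) = 2 :=
          orderOf_eq_prime (by rw [pow_two, h.quot_sq]) fun h1 =>
            he₀ ((QuotientGroup.eq_one_iff _).1 h1)
        exact this ▸ orderOf_dvd_natCard _
      obtain ⟨q, hq, hq1⟩ := hp.exists_fixed_point_of_prime_dvd_card_of_fixed_point
        (E ⧸ Subgroup.center E) h2 (a := 1) (fun s => map_one (Ex.qmap (s : MulAut E)))
      obtain ⟨x, rfl⟩ := QuotientGroup.mk'_surjective _ q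
      exact hq1 ((QuotientGroup.eq_one_iff _).2 (hle fun s hs => hq ⟨s, hs⟩)).symm
    have hAtop := irr A hAK hAS hZ hne
    intro s hs hsk
    have hs' : s ∈ S' := ⟨hs, Subgroup.mem_centralizer_iff.2 fun k hk => (hsk k hk).symm⟩
    have hd : ∀ e : E, s e * e⁻¹ ∈ Subgroup.center E := fun e => by
      have h1 : e ∈ A := hAtop ▸ Subgroup.mem_top e
      rw [← QuotientGroup.eq_one_iff, QuotientGroup.mk_mul, QuotientGroup.mk_inv]
      exact mul_inv_eq_one.2 (h1 s hs')
    let D : Subgroup E :=
      { carrier := {e | s e = e}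
        one_mem' := map_one s
        mul_mem' := fun {a b} ha hb => by
          simp only [Set.mem_setOf_eq] at *; rw [map_mul, ha, hb]
        inv_mem' := fun {a} ha => by
          simp only [Set.mem_setOf_eq] at *; rw [map_inv, ha] }
    refine MulEquiv.ext fun e => ?_
    refine h.norm_trick K hact.odd ⊤ D (fun c hc => h.aut_center s hc)
      (fun _ _ _ _ => Subgroup.mem_top _)
      (fun f _ hf => h.aut_center s (hact.fix (h.mem_fixG_of_mod hact.odd hf)))
      (Subgroup.mem_top e) fun k hk => ?_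
    change s (k e * e⁻¹) = k e * e⁻¹
    set c := s e * e⁻¹ with hc
    have h1 : s e = c * e := by rw [hc, inv_mul_cancel_right]
    have h2 : s (k e) = c * k e := by
      rw [← MulAut.mul_apply, hsk k hk, MulAut.mul_apply, h1, map_mul, h.aut_center k (hd e)]
    rw [map_mul, map_inv, h2, h1, mul_inv_rev]
    calc c * k e * (e⁻¹ * c⁻¹) = c * (k e * e⁻¹) * c⁻¹ := by group
      _ = k e * e⁻¹ := by
        rw [← Subgroup.mem_center_iff.1 (hd e) (k e * e⁻¹), mul_inv_cancel_right]
  have hfaith : ∀ x : MulAut E, (∀ e : E, x e = e) → x = 1 := fun x hx => MulEquiv.ext hx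
  -- normal subgroups of `K` under `S`
  by_cases hN : ∃ N : Subgroup (MulAut E), N < K ∧ N ≠ ⊥ ∧
      (∀ k ∈ K, ∀ x ∈ N, k⁻¹ * x * k ∈ N) ∧ ∀ s ∈ S, ∀ x ∈ N, s⁻¹ * x * s ∈ N
  · obtain ⟨N, hNK, hN1, hNk, hNs⟩ := hN
    have hfixN : fixG N ≤ Subgroup.center E := by
      by_contra hne
      have htop := irr _ (inv_fixG hNk) (inv_fixG hNs) (h.center_le_fixG N) hne
      exact hN1 ((Subgroup.eq_bot_iff_forall _).2 fun x hx =>
        hfaith x fun e => (htop ▸ Subgroup.mem_top e : e ∈ fixG N) x hx)
    refine ihK _ ?_ N ⟨hact.two, hact.odd.of_dvd_nat (Subgroup.card_dvd_of_le hNK.le), hNs,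
      hfixN⟩ rfl
    refine lt_of_le_of_ne (Nat.le_of_dvd Nat.card_pos (Subgroup.card_dvd_of_le hNK.le))
      fun h1 => hNK.ne (Subgroup.eq_of_le_of_card_ge hNK.le h1.ge)
  push Not at hN
  have hK1 : K ≠ ⊥ := fun h1 => he₀ (hact.fix fun x hx => by
    rw [h1, Subgroup.mem_bot] at hx; rw [hx]; rfl)
  have hnormN : ∀ N : Subgroup (MulAut E), N < K →
      (∀ k ∈ K, ∀ x ∈ N, k⁻¹ * x * k ∈ N) → (∀ s ∈ S, ∀ x ∈ N, s⁻¹ * x * s ∈ N) → N = ⊥ := by
    intro N h1 h2 h3
    by_contra hne
    obtain ⟨s, hs, x, hx, h4⟩ := hN N h1 hne h2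
    exact h4 (h3 s hs x hx)
  have hKab : ∀ a ∈ K, ∀ b ∈ K, a * b = b * a := by
    set N := ⁅K, K⁆ with hNdef
    have hinvN : ∀ y : MulAut E, (∀ k ∈ K, y * k * y⁻¹ ∈ K) → ∀ x ∈ N, y * x * y⁻¹ ∈ N := by
      intro y hy x hx
      have h1 : N.map (MulAut.conj y).toMonoidHom ≤ N := by
        rw [hNdef, Subgroup.map_commutator]
        refine Subgroup.commutator_mono ?_ ?_ <;> rintro _ ⟨k, hk, rfl⟩ <;> exact hy k hk
      exact h1 ⟨x, hx, rfl⟩
    have hlt : N < K := by
      haveI : Nontrivial K := (Subgroup.nontrivial_iff_ne_bot K).2 hK1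
      haveI := hFT K hact.odd
      have h1 := Group.IsSolvable.commutator_lt_top_of_nontrivial K
      have h2 := (Subgroup.map_lt_map_iff_of_injective K.subtype_injective).2 h1
      rwa [commutator_def, Subgroup.map_commutator, ← MonoidHom.range_eq_map,
        Subgroup.range_subtype] at h2
    have := hnormN N hlt
      (fun k hk x hx => by
        simpa using hinvN k⁻¹ (fun j hj => K.mul_mem (K.mul_mem (K.inv_mem hk) hj) (by simpa)) x hx)
      (fun s hs x hx => by
        simpa using hinvN s⁻¹ (fun j hj => by simpa using hact.norm s hs j hj) x hx)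
    intro a ha b hb
    have h1 : ⁅a, b⁆ ∈ N := Subgroup.commutator_mem_commutator ha hb
    rw [this, Subgroup.mem_bot] at h1
    exact commutatorElement_eq_one_iff_mul_comm.1 h1
  obtain ⟨r, hr, hrK⟩ := Nat.exists_prime_and_dvd
    ((Subgroup.one_lt_card_iff_ne_bot K).2 hK1).ne'
  haveI : Fact r.Prime := ⟨hr⟩
  have hrodd : Odd r := hact.odd.of_dvd_nat hrK
  have hKr : ∀ k ∈ K, k ^ r = 1 := by
    let N : Subgroup (MulAut E) :=
      { carrier := {k | k ∈ K ∧ k ^ r = 1}
        one_mem' := ⟨K.one_mem, one_pow r⟩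
        mul_mem' := fun {a b} ha hb => ⟨K.mul_mem ha.1 hb.1, by
          rw [(show Commute a b from hKab a ha.1 b hb.1).mul_pow, ha.2, hb.2, one_mul]⟩
        inv_mem' := fun {a} ha => ⟨K.inv_mem ha.1, by rw [inv_pow, ha.2, inv_one]⟩ }
    intro k hk
    by_contra hk'
    have h0 := hnormN N (lt_of_le_not_ge (fun x hx => hx.1) fun h1 => hk' (h1 hk).2)
      (fun j hj x hx => by
        rw [mul_assoc, hKab x hx.1 j hj, inv_mul_cancel_left]; exact hx)
      (fun s hs x hx => ⟨hact.norm s hs x hx.1, by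
        rw [show s⁻¹ * x * s = s⁻¹ * x * s⁻¹⁻¹ by rw [inv_inv], conj_pow, hx.2, mul_one,
          mul_inv_cancel]⟩)
    obtain ⟨⟨x, hx⟩, hxo⟩ := exists_prime_orderOf_dvd_card' (G := K) r hrK
    rw [Subgroup.orderOf_mk] at hxo
    have h1 : x ∈ N := ⟨hx, hxo ▸ pow_orderOf_eq_one x⟩
    rw [h0, Subgroup.mem_bot] at h1
    exact hr.ne_one (by rw [← hxo, h1, orderOf_one])
  -- maximal subgroups of `K` with a fixed point
  obtain ⟨M, ⟨hMK, hMf⟩, hMmax⟩ :=
    (Set.toFinite {M : Subgroup (MulAut E) | M ≤ K ∧ ¬ fixG M ≤ Subgroup.center E}).exists_maximal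
      ⟨⊥, bot_le, fun h1 => he₀ (h1 fun x hx => by rw [Subgroup.mem_bot.1 hx]; rfl)⟩
  have hMne : M ≠ K := fun h1 => hMf (h1 ▸ hact.fix)
  by_cases hMS : ∀ s ∈ S, ∀ x ∈ M, s⁻¹ * x * s ∈ M
  · -- fixed-point-free case: `K` has prime order
    have hM0 := hnormN M (lt_of_le_of_ne hMK hMne)
      (fun k hk x hx => by
        rw [mul_assoc, hKab x (hMK hx) k hk, inv_mul_cancel_left]; exact hx) hMS
    subst hM0
    have hfpf : ∀ c ∈ K, c ≠ 1 → fixG (Subgroup.zpowers c) ≤ Subgroup.center E := by
      intro c hc hc1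
      by_contra hne
      exact hc1 (Subgroup.mem_bot.1 ((hMmax ⟨(Subgroup.zpowers_le).2 hc, hne⟩ bot_le)
        (Subgroup.mem_zpowers c)))
    letI : CommGroup (E ⧸ Subgroup.center E) :=
      { (inferInstance : Group (E ⧸ Subgroup.center E)) with mul_comm := h.quot_comm }
    let p : E →* E ⧸ Subgroup.center E := QuotientGroup.mk' (Subgroup.center E)
    have hnormz : ∀ c ∈ K, c ≠ 1 → ∀ e : E,
        ∏ j ∈ Finset.range r, p ((c ^ j) e) = 1 := by
      intro c hc hc1 e
      obtain ⟨f, hf⟩ := QuotientGroup.mk'_surjective (Subgroup.center E)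
        (∏ j ∈ Finset.range r, p ((c ^ j) e))
      rw [← hf, QuotientGroup.mk'_apply, QuotientGroup.eq_one_iff]
      refine hfpf c hc hc1 fun x hx => ?_
      have hcK : Subgroup.zpowers c ≤ K := (Subgroup.zpowers_le).2 hc
      refine h.fixed_of_mod hact.odd (hcK hx) ?_
      have hc' : Ex.qmap c (p f) = p f := by
        rw [show p f = _ from hf, map_prod]
        have h1 : ∀ j, Ex.qmap c (p ((c ^ j) e)) = p ((c ^ (j + 1)) e) := fun j => by
          rw [pow_succ']; rfl
        simp only [h1]
        have h2 := Finset.prod_range_succ' (fun j => p ((c ^ j) e)) r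
        rw [Finset.prod_range_succ, pow_zero, MulAut.one_apply, hKr c hc, MulAut.one_apply] at h2
        exact (mul_right_cancel h2).symm
      have hfc : c f = f := h.fixed_of_mod hact.odd hc (by
        rw [← QuotientGroup.eq_one_iff, QuotientGroup.mk_mul, QuotientGroup.mk_inv]
        exact mul_inv_eq_one.2 hc')
      obtain ⟨i, rfl⟩ := (mem_powers_iff_mem_zpowers.2 hx : x ∈ Submonoid.powers c)
      have hfi : ∀ j : ℕ, (c ^ j) f = f := fun j => by
        induction j with
        | zero => rfl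
        | succ j ih => rw [pow_succ, MulAut.mul_apply, hfc, ih]
      show (c ^ i) f * f⁻¹ ∈ _
      rw [hfi, mul_inv_cancel]
      exact Subgroup.one_mem _
    obtain ⟨b, hb, hb1⟩ : ∃ b, b ∈ K ∧ b ≠ 1 := by
      by_contra hcon
      push Not at hcon
      exact hK1 ((Subgroup.eq_bot_iff_forall _).2 hcon)
    have hKb : K = Subgroup.zpowers b := by
      refine le_antisymm (fun a ha => ?_) ((Subgroup.zpowers_le).2 hb)
      by_contra hab
      refine he₀ ((QuotientGroup.eq_one_iff e₀).1 ?_)
      have hab1 : ∀ i : ℕ, a * b ^ i ≠ 1 := fun i h1 => hab (by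
        rw [eq_inv_of_mul_eq_one_left h1]
        exact Subgroup.inv_mem _ (Subgroup.npow_mem_zpowers b i))
      have h1 : ∏ i ∈ Finset.range r, ∏ j ∈ Finset.range r, p (((a * b ^ i) ^ j) e₀) = 1 :=
        Finset.prod_eq_one fun i _ =>
          hnormz _ (K.mul_mem ha (K.pow_mem hb i)) (hab1 i) e₀
      rw [Finset.prod_comm, Finset.prod_eq_single_of_mem 0 (Finset.mem_range.2 hr.pos)] at h1
      · simp only [pow_zero, Finset.prod_const, Finset.card_range] at h1
        obtain ⟨k, hk⟩ := hrodd
        rw [hk, pow_succ, pow_mul, pow_two, h.quot_sq, one_pow, one_mul] at h1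
        exact h1
      · intro j hj hj0
        have hbj : b ^ j ≠ 1 := fun h2 => by
          have h3 := orderOf_dvd_of_pow_eq_one h2
          rw [orderOf_eq_prime (hKr b hb) hb1] at h3
          exact absurd (Nat.le_of_dvd (Nat.pos_of_ne_zero hj0) h3)
            (Finset.mem_range.1 hj).not_ge
        have h2 := hnormz _ (K.pow_mem hb j) hbj ((a ^ j) e₀)
        refine Eq.trans (Finset.prod_congr rfl fun i _ => ?_) h2
        rw [(show Commute a (b ^ i) from hKab a ha _ (K.pow_mem hb i)).mul_pow,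
          (show Commute (a ^ j) ((b ^ i) ^ j) from
            hKab _ (K.pow_mem ha j) _ (K.pow_mem (K.pow_mem hb i) j)).eq, ← pow_mul, mul_comm i j,
          pow_mul]
        rfl
    have hcard : Nat.card K = r := by
      rw [hKb, Nat.card_zpowers, orderOf_eq_prime (hKr b hb) hb1]
    haveI : IsCyclic K := isCyclic_of_prime_card hcard
    haveI : IsCyclic (MulAut K) := by
      haveI : IsCyclic (ZMod (Nat.card K))ˣ := by rw [hcard]; infer_instance
      exact isCyclic_of_surjective _ (IsCyclic.mulAutMulEquiv K).symm.surjective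
    let cj : S →* MulAut K :=
      { toFun := fun s =>
          { toFun := fun k => ⟨(s : MulAut E) * k * (s : MulAut E)⁻¹, hact.norm' s.2 k.2⟩
            invFun := fun k => ⟨(s : MulAut E)⁻¹ * k * (s : MulAut E), hact.norm _ s.2 _ k.2⟩
            left_inv := fun k => Subtype.ext (by simp [mul_assoc])
            right_inv := fun k => Subtype.ext (by simp [mul_assoc])
            map_mul' := fun k l => Subtype.ext (by simp [mul_assoc]) }
        map_one' := by ext k; simp
        map_mul' := fun s t => by ext k; simp [mul_assoc] }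
    have hcj : Function.Injective cj := by
      rw [injective_iff_map_eq_one]
      intro s hs
      refine Subtype.ext (hS1 s s.2 fun k hk => ?_)
      have h1 := congrArg Subtype.val (DFunLike.congr_fun hs (⟨k, hk⟩ : K))
      change (s : MulAut E) * k * (s : MulAut E)⁻¹ = k at h1
      exact mul_inv_eq_iff_eq_mul.1 h1
    refine good_cyclic h S.subtype ?_
    rw [Subgroup.range_subtype]
    exact isCyclic_of_injective cj hcj
  -- tensor induction from the stabiliser of `M`
  push Not at hMS
  obtain ⟨s₁, hs₁, x₁, hx₁, hne₁⟩ := hMS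
  let cM : MulAut E → Subgroup (MulAut E) := fun s => M.map (MulAut.conj s).toMonoidHom
  have hcMK : ∀ s ∈ S, cM s ≤ K := by
    rintro s hs _ ⟨x, hx, rfl⟩
    exact hact.norm' hs (hMK hx)
  have hfixc : ∀ (s : MulAut E) {e : E}, e ∈ fixG M → s e ∈ fixG (cM s) := by
    rintro s e he _ ⟨x, hx, rfl⟩
    simp [MulAut.mul_apply, MulAut.inv_apply_self, he x hx]
  have hfixc' : ∀ (s : MulAut E) {e : E}, e ∈ fixG (cM s) → s⁻¹ e ∈ fixG M := by
    intro s e he x hx
    have h1 := congrArg (s⁻¹ : MulAut E) (he _ ⟨x, hx, rfl⟩)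
    simpa [MulAut.mul_apply, MulAut.inv_apply_self] using h1
  have hmaxc : ∀ s ∈ S, ∀ t ∈ S, cM s ≠ cM t →
      fixG (cM s) ⊓ fixG (cM t) ≤ Subgroup.center E := by
    intro s hs t ht hne
    by_contra hcon
    apply hne
    have key : ∀ u ∈ S, ∀ v ∈ S, ¬ fixG (cM u ⊔ cM v) ≤ Subgroup.center E → cM v ≤ cM u := by
      intro u hu v hv hf
      have h1 : M ≤ (cM u ⊔ cM v).map (MulAut.conj u⁻¹).toMonoidHom := fun x hx =>
        ⟨_, Subgroup.mem_sup_left ⟨x, hx, rfl⟩, by simp [mul_assoc]⟩
      have h2 := hMmax (y := (cM u ⊔ cM v).map (MulAut.conj u⁻¹).toMonoidHom) ⟨?_, ?_⟩ h1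
      · intro y hy
        have h3 : u⁻¹ * y * u ∈ M := h2 ⟨y, Subgroup.mem_sup_right hy, by simp⟩
        exact ⟨_, h3, by simp [mul_assoc]⟩
      · rintro _ ⟨y, hy, rfl⟩
        have h3 : y ∈ K := sup_le (hcMK u hu) (hcMK v hv) hy
        simpa using hact.norm u hu y h3
      · intro hle
        refine hf fun e he => ?_
        have h3 : (u⁻¹ : MulAut E) e ∈ fixG ((cM u ⊔ cM v).map (MulAut.conj u⁻¹).toMonoidHom) := by
          rintro _ ⟨y, hy, rfl⟩
          simp [MulAut.mul_apply, MulAut.apply_inv_self, he y hy]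
        have h4 := hle h3
        have h5 := h.aut_center u h4
        rw [MulAut.apply_inv_self] at h5
        rw [h5]
        exact h4
    have hsup : fixG (cM s) ⊓ fixG (cM t) ≤ fixG (cM s ⊔ cM t) := fun e he x hx => by
      refine (show cM s ⊔ cM t ≤
        ({ carrier := {x : MulAut E | x e = e}
           one_mem' := rfl
           mul_mem' := fun {a b} ha hb => by
             simp only [Set.mem_setOf_eq, MulAut.mul_apply] at *; rw [hb, ha]
           inv_mem' := fun {a} ha => by
             simp only [Set.mem_setOf_eq] at *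
             nth_rw 1 [← ha]
             exact MulAut.inv_apply_self E a e } : Subgroup (MulAut E))
        from sup_le (fun y hy => he.1 y hy) (fun y hy => he.2 y hy)) hx
    refine le_antisymm (key t ht s hs ?_) (key s hs t ht fun h1 => hcon (hsup.trans h1))
    rw [sup_comm]
    exact fun h1 => hcon (hsup.trans h1)
  have hcomm : ∀ s ∈ S, ∀ t ∈ S, cM s ≠ cM t → ∀ a ∈ fixG (cM s), ∀ b ∈ fixG (cM t),
      a * b = b * a := by
    intro s hs t ht hne a ha b hb
    have hX : Odd (Nat.card (cM s)) :=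
      hact.odd.of_dvd_nat (Subgroup.card_dvd_of_le (hcMK s hs))
    refine (Subgroup.mem_centralizer_singleton_iff.1 (h.norm_trick (cM s) hX (fixG (cM t))
      (Subgroup.centralizer {a}) (Subgroup.center_le_centralizer _) ?_ ?_ hb ?_)).symm
    · intro x hx d hd y hy
      rw [← MulAut.mul_apply, hKab y (hcMK t ht hy) x (hcMK s hs hx), MulAut.mul_apply, hd y hy]
    · intro f hf hmod
      exact Subgroup.center_le_centralizer _
        (hmaxc s hs t ht hne ⟨h.mem_fixG_of_mod hX hmod, hf⟩)
    · intro x hx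
      have hxa : x a = a := ha x hx
      have hc : ⁅a, x b⁆ = ⁅a, b⁆ := by
        conv_lhs => rw [← hxa]
        rw [← map_commutatorElement x a b, h.aut_center x (h.comm_mem a b)]
      rw [Subgroup.mem_centralizer_singleton_iff]
      have h1 : a * x b * a⁻¹ = ⁅a, b⁆ * x b := by rw [← hc]; simp [commutatorElement_def]
      have h2 : a * b * a⁻¹ = ⁅a, b⁆ * b := by simp [commutatorElement_def]
      have h3 : a * (x b * b⁻¹) * a⁻¹ = x b * b⁻¹ := by
        rw [show a * (x b * b⁻¹) * a⁻¹ = (a * x b * a⁻¹) * (a * b * a⁻¹)⁻¹ by group, h1, h2,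
          _root_.mul_inv_rev, ← mul_assoc, mul_assoc ⁅a, b⁆ (x b) b⁻¹,
          ← Subgroup.mem_center_iff.1 (h.comm_mem a b) (x b * b⁻¹), mul_inv_cancel_right]
      exact (mul_inv_eq_iff_eq_mul.1 h3).symm
  let S₀ : Subgroup S :=
    { carrier := {s | cM s = M}
      one_mem' := by
        change M.map _ = M
        conv_rhs => rw [← Subgroup.map_id M]
        congr 1
      mul_mem' := fun {s t} hs ht => by
        simp only [Set.mem_setOf_eq, cM] at *
        rw [Subgroup.coe_mul, map_mul]
        conv_rhs => rw [← hs, ← ht]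
        rw [Subgroup.map_map]
        rfl
      inv_mem' := fun {s} hs => by
        simp only [Set.mem_setOf_eq, cM] at *
        conv_lhs => rw [← hs]
        rw [Subgroup.map_map]
        conv_rhs => rw [← Subgroup.map_id M]
        congr 1
        ext x
        simp [mul_assoc] }
  set A := fixG M with hA'
  have hAinv : ∀ s : S₀, ∀ a ∈ A, S.subtype (s : S) a ∈ A := fun s a ha =>
    have h1 : cM ((s : S) : MulAut E) = M := s.2
    by have h2 := hfixc ((s : S) : MulAut E) ha; rwa [h1] at h2
  have hAK : Inv K A := inv_fixG fun k hk x hx => by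
    rw [mul_assoc, hKab x (hMK hx) k hk, inv_mul_cancel_left]; exact hx
  have hcommS : ∀ s t : S, s⁻¹ * t ∉ S₀ → ∀ a ∈ A, ∀ b ∈ A,
      S.subtype s a * S.subtype t b = S.subtype t b * S.subtype s a := by
    intro s t hst a ha b hb
    refine hcomm s s.2 t t.2 (fun heq => hst ?_) _ (hfixc _ ha) _ (hfixc _ hb)
    change cM ((s⁻¹ * t : S) : MulAut E) = M
    simp only [cM] at heq ⊢
    have h1 := congrArg (Subgroup.map (MulAut.conj ((s : MulAut E))⁻¹).toMonoidHom) heq
    rw [Subgroup.map_map, Subgroup.map_map] at h1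
    conv_rhs => rw [← Subgroup.map_id M]
    have e1 : ((MulAut.conj ((s : MulAut E))⁻¹).toMonoidHom.comp
        (MulAut.conj (s : MulAut E)).toMonoidHom) = MonoidHom.id _ := by
      ext x; simp [mul_assoc]
    rw [e1] at h1
    rw [h1, Subgroup.coe_mul, Subgroup.coe_inv, map_mul]
    rfl
  have hgen : ⨆ s : S, A.map (S.subtype s).toMonoidHom = ⊤ := by
    set T := ⨆ s : S, A.map (S.subtype s).toMonoidHom
    have hAT : A ≤ T := fun a ha =>
      (le_iSup (fun s : S => A.map (S.subtype s).toMonoidHom) 1) ⟨a, ha, rfl⟩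
    refine irr T (fun k hk e he => ?_) (fun t ht e he => ?_) ((h.center_le_fixG M).trans hAT)
      fun h1 => hMf (hAT.trans h1)
    · have : T.map k.toMonoidHom ≤ T := by
        rw [Subgroup.map_iSup]
        refine iSup_le fun s => le_trans ?_ (le_iSup _ s)
        rintro _ ⟨_, ⟨a, ha, rfl⟩, rfl⟩
        refine ⟨(((s : MulAut E))⁻¹ * k * (s : MulAut E)) a,
          hAK _ (hact.norm _ s.2 _ hk) a ha, ?_⟩
        simp [MulAut.mul_apply, MulAut.apply_inv_self]
      exact this ⟨e, he, rfl⟩
    · have : T.map t.toMonoidHom ≤ T := by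
        rw [Subgroup.map_iSup]
        refine iSup_le fun s => le_trans ?_ (le_iSup _ (⟨t, ht⟩ * s))
        rintro _ ⟨_, ⟨a, ha, rfl⟩, rfl⟩
        exact ⟨a, ha, rfl⟩
      exact this ⟨e, he, rfl⟩
  have hcenA : ∀ a ∈ A, (∀ b ∈ A, a * b = b * a) → a ∈ Subgroup.center E := by
    intro a ha hab
    have : ⨆ s : S, A.map (S.subtype s).toMonoidHom ≤ Subgroup.centralizer {a} := by
      refine iSup_le fun s => ?_
      rintro _ ⟨b, hb, rfl⟩
      rw [Subgroup.mem_centralizer_singleton_iff]
      by_cases hs : (1 : S)⁻¹ * s ∈ S₀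
      · rw [inv_one, one_mul] at hs
        exact (hab _ (hAinv ⟨s, hs⟩ b hb)).symm
      · exact (hcommS 1 s hs a ha b hb).symm
    rw [hgen, top_le_iff] at this
    exact Subgroup.mem_center_iff.2 fun e => Subgroup.mem_centralizer_singleton_iff.1
      (this ▸ Subgroup.mem_top e)
  have hzA : z ∈ A := h.center_le_fixG M h.z_mem
  refine good_induced h S.subtype A S₀ hAinv hzA hcenA hcommS hgen ?_
  have hEx : Ex A ⟨z, hzA⟩ := by
    refine ⟨fun h1 => h.ne (congrArg Subtype.val h1), Subtype.ext h.sq_z, fun x => ?_,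
      fun x => Subgroup.mem_center_iff.2 fun g => Subtype.ext
        (Subgroup.mem_center_iff.1 (h.sq_mem x) g)⟩
    refine ⟨fun hx => ?_, ?_⟩
    · rcases (h.mem_center _).1 (hcenA x x.2 fun b hb =>
        (congrArg Subtype.val (Subgroup.mem_center_iff.1 hx ⟨b, hb⟩)).symm) with h1 | h1
      · exact Or.inl (Subtype.ext h1)
      · exact Or.inr (Subtype.ext h1)
    · rintro (rfl | rfl)
      · exact Subgroup.one_mem _
      · exact Subgroup.mem_center_iff.2 fun g => Subtype.ext (h.z_comm _).symm
  have hlt : Nat.card A < Nat.card E := by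
    refine lt_of_le_of_ne (Subgroup.card_le_card_group _) fun h1 => hne₁ ?_
    have htop : A = ⊤ := Subgroup.eq_top_of_card_eq _ h1
    have hx : x₁ = 1 := hfaith x₁ fun e => (htop ▸ Subgroup.mem_top e : e ∈ A) x₁ hx₁
    rw [hx, mul_one, inv_mul_cancel]
    exact M.one_mem
  let S₁ : Subgroup (MulAut E) := S₀.map S.subtype
  have hA1 : ∀ s : S₁, ∀ a ∈ A, S₁.subtype s a ∈ A := by
    rintro ⟨_, s, hs, rfl⟩ a ha
    exact hAinv ⟨s, hs⟩ a ha
  have g := reduce (fun K' S' a' => ih _ hlt hEx K' S' a' rfl) (S₀ := S₁)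
    (hact.two.to_le (Subgroup.map_subtype_le _)) hact.odd
    (fun s hs k hk => hact.norm s (Subgroup.map_subtype_le _ hs) k hk)
    (resHom K.subtype A fun k a ha => hAK k k.2 a ha) (resHom S₁.subtype A hA1)
    (fun s k hk x => Subtype.ext (by
      change (s : MulAut E) (((s : MulAut E)⁻¹ * k * s) (x : E)) =
        (k : MulAut E) ((s : MulAut E) (x : E))
      simp [MulAut.mul_apply, MulAut.apply_inv_self]))
    (fun f hf => by
      have h1 : (f : E) ∈ Subgroup.center E :=
        hact.fix fun k hk => congrArg Subtype.val (hf ⟨k, hk⟩)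
      exact Subgroup.mem_center_iff.2 fun g => Subtype.ext (Subgroup.mem_center_iff.1 h1 g))
  exact g.comp ((S.subtype.comp S₀.subtype).codRestrict S₁ fun s => ⟨(s : S), s.2, rfl⟩)

end CfsgLib.ExtraSplit59
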